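/-
The short relations bound the order of the group they define.
-/
import Cfsg.Agent.Lib.ShortPres.Model

set_option autoImplicit false

namespace CfsgLib.ShortPres

open Equiv

variable {G : Type*} [Group G]

theorem sq_swap {g h : G} (e : (g * h) ^ 2 = 1) : (h * g) ^ 2 = 1 := by
  rw [show h * g = g⁻¹ * (g * h) * g⁻¹⁻¹ by group, conj_pow, e, mul_one, mul_inv_cancel]

theorem sq_zpow {g h : G} {e : ℤ} (he : e = 1 ∨ e = -1) (hgh : (g * h) ^ 2 = 1) :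
    (g ^ e * h ^ e) ^ 2 = 1 := by
  rcases he with rfl | rfl
  · simpa using hgh
  · rw [zpow_neg_one, zpow_neg_one, ← mul_inv_rev, inv_pow, sq_swap hgh, inv_one]

theorem zpow_zpow_self {g : G} {e : ℤ} (he : e = 1 ∨ e = -1) : (g ^ e) ^ e = g := by
  rcases he with rfl | rfl <;> simp

theorem sq_conj {u g h : G} (hgh : (g * h) ^ 2 = 1) :
    (u * g * u⁻¹ * (u * h * u⁻¹)) ^ 2 = 1 := by
  rw [show u * g * u⁻¹ * (u * h * u⁻¹) = u * (g * h) * u⁻¹ by group, conj_pow, hgh, mul_one, mul_inv_cancel]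

variable {p d M : ℕ}

/-- The three-cycles of the block, as words in the generators. -/
def xg (a z : G) (i : ZMod p) : G := a ^ i.val * z * (a ^ i.val)⁻¹

variable (p) in
/-- The subgroup they generate. -/
def KX (a z : G) : Subgroup G := Subgroup.closure (Set.range (xg (p := p) a z))

variable [NeZero p]

/-- The relations on the first block. -/
structure Rel0 (D : Data p d M) (ψ : G →* Perm (Bool ⊕ (ZMod p ⊕ Fin d))) (a w : G) : Prop where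
  gen : Subgroup.closure {a, w} = ⊤
  ha : ψ a = aT d
  hw : ψ w = D.wT
  r1 : a ^ p = w ^ (3 * M)
  r2 : ∃ b : G, ∃ r s : ZMod p, (∀ t : ZMod p, t ≠ 0 → ∃ k : ℕ, r ^ k = t) ∧ r * s + 1 = s ∧
    b * a ^ ((r * s).val + 1) * b⁻¹ = a ^ (r * s).val ∧
    ∃ e : ℤ, (e = 1 ∨ e = -1) ∧ b * w ^ M * b⁻¹ = (w ^ M) ^ e
  r5 : (w ^ M * (a * w ^ M * a⁻¹)) ^ 2 = 1

/-- The relations. -/
structure Rel (D : Data p d M) (ψ : G →* Perm (Bool ⊕ (ZMod p ⊕ Fin d))) (a w : G) : Prop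
    extends Rel0 D ψ a w where
  r2' : ∃ b ∈ KX p a (w ^ M), ∃ k : ℕ, b * a ^ (k + 1) * b⁻¹ = a ^ k
  r4 : ∃ h ∈ KX p a (w ^ M), ψ h = evenify (liftP (cyc D.SH)) ∧
    w ^ 9 * h * (w ^ 9)⁻¹ ∈ KX p a (w ^ M)
  r6 : ∃ u ∈ KX p a (w ^ M), ∃ q ∈ KX p a (w ^ M), ψ u = evenify (liftP (cyc D.SU)) ∧
    ψ q = evenify (liftP (cyc D.SQ)) ∧ Commute (w ^ 9 * u * (w ^ 9)⁻¹) q

namespace Rel0

variable {D : Data p d M} {ψ : G →* Perm (Bool ⊕ (ZMod p ⊕ Fin d))} {a w : G}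

theorem central (R : Rel0 D ψ a w) (g : G) : Commute (a ^ p) g := by
  have hle : Subgroup.closure {a, w} ≤ Subgroup.centralizer {a ^ p} := by
    rw [Subgroup.closure_le]
    rintro x (rfl | rfl) <;> rw [SetLike.mem_coe, Subgroup.mem_centralizer_singleton_iff]
    · exact (Commute.self_pow _ _).eq
    · rw [R.r1]; exact (Commute.self_pow _ _).eq
  rw [R.gen] at hle
  exact (Subgroup.mem_centralizer_singleton_iff.mp (hle (Subgroup.mem_top g))).symm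

theorem a_pow_p (R : Rel0 D ψ a w) : a ^ p = 1 := by
  obtain ⟨b, r, s, -, -, hb, -⟩ := R.r2
  have h := congrArg (· ^ p) hb
  simp only [conj_pow, ← pow_mul] at h
  rw [mul_comm ((r * s).val + 1) p, mul_comm (r * s).val p, pow_mul, pow_mul,
    ← ((R.central b).pow_left _).eq, mul_inv_cancel_right, pow_succ] at h
  simpa using h

theorem z_pow_three (R : Rel0 D ψ a w) : (w ^ M) ^ 3 = 1 := by
  rw [← pow_mul, mul_comm, ← R.r1, R.a_pow_p]

theorem a_pow_cast (R : Rel0 D ψ a w) (k : ℕ) : a ^ ((k : ZMod p)).val = a ^ k := by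
  rw [ZMod.val_natCast, ← pow_eq_pow_mod k R.a_pow_p]

theorem a_pow_add (R : Rel0 D ψ a w) (i j : ZMod p) : a ^ (i + j).val = a ^ i.val * a ^ j.val := by
  rw [← pow_add, ← R.a_pow_cast (i.val + j.val)]
  simp

theorem conj_xg (R : Rel0 D ψ a w) (k : ℕ) (i : ZMod p) :
    a ^ k * xg a (w ^ M) i * (a ^ k)⁻¹ = xg a (w ^ M) ((k : ZMod p) + i) := by
  simp only [xg, R.a_pow_add, R.a_pow_cast, mul_inv_rev, mul_assoc]

theorem xg_zero : xg (p := p) a (w ^ M) 0 = w ^ M := by simp [xg]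

theorem xg_mem (i : ZMod p) : xg a (w ^ M) i ∈ KX p a (w ^ M) := Subgroup.subset_closure ⟨i, rfl⟩

theorem z_mem : w ^ M ∈ KX p a (w ^ M) := by
  have h := xg_mem (p := p) (M := M) (a := a) (w := w) 0
  rwa [xg_zero] at h

theorem conj_KX (R : Rel0 D ψ a w) (k : ℕ) {g : G} (hg : g ∈ KX p a (w ^ M)) :
    a ^ k * g * (a ^ k)⁻¹ ∈ KX p a (w ^ M) := by
  have : KX p a (w ^ M) ≤ (KX p a (w ^ M)).comap (MulAut.conj (a ^ k)).toMonoidHom := by
    conv_lhs => rw [KX]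
    rw [Subgroup.closure_le]
    rintro _ ⟨i, rfl⟩
    show a ^ k * _ * (a ^ k)⁻¹ ∈ KX p a (w ^ M)
    rw [R.conj_xg]
    exact xg_mem _
  exact this hg

theorem a_mem' (R : Rel0 D ψ a w) {b : G} (hb : b ∈ KX p a (w ^ M)) {k : ℕ}
    (hr : b * a ^ (k + 1) * b⁻¹ = a ^ k) : a ∈ KX p a (w ^ M) := by
  have h := mul_mem hb (R.conj_KX (k + 1) (inv_mem hb))
  have e : b * (a ^ (k + 1) * b⁻¹ * (a ^ (k + 1))⁻¹) = a⁻¹ := by
    calc b * (a ^ (k + 1) * b⁻¹ * (a ^ (k + 1))⁻¹)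
        = b * a ^ (k + 1) * b⁻¹ * (a ^ (k + 1))⁻¹ := by group
      _ = a⁻¹ := by rw [hr, pow_succ, mul_inv_rev, ← mul_assoc, mul_inv_eq_iff_eq_mul, (Commute.inv_left (Commute.self_pow a _)).eq]
  rw [e] at h
  exact inv_mem_iff.mp h

variable [Fact p.Prime]

theorem conj_b (R : Rel0 D ψ a w) {b : G} {r s : ZMod p} {e : ℤ} (hrs : r * s + 1 = s)
    (hr : b * a ^ ((r * s).val + 1) * b⁻¹ = a ^ (r * s).val)
    (hz : b * w ^ M * b⁻¹ = (w ^ M) ^ e) :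
    (∀ i : ZMod p, b * a ^ i.val * b⁻¹ = a ^ (r * i).val) ∧
      ∀ i : ZMod p, b * xg a (w ^ M) i * b⁻¹ = xg a (w ^ M) (r * i) ^ e := by
  have hs : s ≠ 0 := fun h => by rw [h, mul_zero, zero_add] at hrs; exact one_ne_zero hrs
  have hA : ∀ i : ZMod p, b * a ^ i.val * b⁻¹ = a ^ (r * i).val := by
    intro i
    have e1 : a ^ i.val = (a ^ ((r * s).val + 1)) ^ (i * s⁻¹).val := by
      rw [← pow_mul, ← R.a_pow_cast (((r * s).val + 1) * (i * s⁻¹).val)]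
      congr 2
      push_cast
      rw [ZMod.natCast_zmod_val, ZMod.natCast_zmod_val, hrs]
      field_simp
    rw [e1, ← conj_pow, hr, ← pow_mul, ← R.a_pow_cast ((r * s).val * (i * s⁻¹).val)]
    congr 2
    push_cast
    rw [ZMod.natCast_zmod_val, ZMod.natCast_zmod_val]
    field_simp
  refine ⟨hA, fun i => ?_⟩
  simp only [xg]
  rw [show b * (a ^ i.val * w ^ M * (a ^ i.val)⁻¹) * b⁻¹ =
    (b * a ^ i.val * b⁻¹) * (b * w ^ M * b⁻¹) * (b * a ^ i.val * b⁻¹)⁻¹ by group, hA, hz, conj_zpow]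

theorem pair (R : Rel0 D ψ a w) {i j : ZMod p} (hij : i ≠ j) :
    (xg a (w ^ M) i * xg a (w ^ M) j) ^ 2 = 1 := by
  obtain ⟨b, r, s, hgen, hrs, hr, e, he, hz⟩ := R.r2
  obtain ⟨-, hX⟩ := R.conj_b hrs hr hz
  have hpow : ∀ n : ℕ, (w ^ M * xg a (w ^ M) (r ^ n)) ^ 2 = 1 := by
    intro n
    induction n with
    | zero =>
      rw [pow_zero, xg, ZMod.val_one, pow_one]
      exact R.r5
    | succ n ih =>
      have := sq_conj (u := b) ih
      rw [hz, hX] at this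
      have h2 := sq_zpow he this
      rwa [zpow_zpow_self he, zpow_zpow_self he, ← pow_succ'] at h2
  obtain ⟨n, hn⟩ := hgen (j - i) (sub_ne_zero.mpr hij.symm)
  have := sq_conj (u := a ^ i.val) (hpow n)
  rw [R.conj_xg, hn, ZMod.natCast_zmod_val, add_sub_cancel] at this
  simpa only [xg] using this

variable (hp : Odd p)
include hp

theorem psi_xg (R : Rel0 D ψ a w) (i : ZMod p) :
    ψ (xg a (w ^ M) i) = star (Sum.inl i : ZMod p ⊕ Fin d) := by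
  rw [xg, map_mul, map_mul, map_inv, map_pow, map_pow, R.ha, R.hw, D.wT_pow_M, aT_pow_conj hp, zero_add,
    ZMod.natCast_zmod_val]

theorem inj (R : Rel0 D ψ a w) {g h : G} (hg : g ∈ KX p a (w ^ M)) (hh : h ∈ KX p a (w ^ M))
    (e : ψ g = ψ h) : g = h := by
  have hmap : (KX p a (w ^ M)).map ψ = KT p d := by
    rw [KX, MonoidHom.map_closure, KT, ← Set.range_comp]
    congr 2
    funext i
    exact R.psi_xg hp i
  obtain ⟨hfin, hcard⟩ := carmichael (x := xg (p := p) a (w ^ M))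
    (fun i => by rw [xg, conj_pow, R.z_pow_three, mul_one, mul_inv_cancel]) (fun i j hij => R.pair hij)
  rw [ZMod.card] at hcard
  change Finite ↥(KX p a (w ^ M)) at hfin
  change 2 * Nat.card ↥(KX p a (w ^ M)) ≤ _ at hcard
  have hge : Nat.card ↥(KX p a (w ^ M)) ≤ Nat.card ↥((KX p a (w ^ M)).map ψ) := by
    rw [hmap]
    have := card_KT (p := p) (d := d)
    omega
  have hbij : Function.Bijective (ψ.subgroupMap (KX p a (w ^ M))) :=
    (Nat.bijective_iff_surjective_and_card _).mpr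
      ⟨ψ.subgroupMap_surjective _, le_antisymm hge (Nat.card_le_card_of_surjective _ (ψ.subgroupMap_surjective _))⟩
  have := hbij.1 (a₁ := ⟨g, hg⟩) (a₂ := ⟨h, hh⟩) (Subtype.ext e)
  exact congrArg Subtype.val this

theorem conj_of_mem (R : Rel0 D ψ a w) {h : G} (hh : h ∈ KX p a (w ^ M)) {σ : Perm (ZMod p)}
    (hσ : ψ h = evenify (liftP σ)) (i : ZMod p) :
    h * xg a (w ^ M) i * h⁻¹ = xg a (w ^ M) (σ i) ^ ((Perm.sign σ : ℤˣ) : ℤ) := by
  refine R.inj hp (mul_mem (mul_mem hh (xg_mem i)) (inv_mem hh)) (zpow_mem (xg_mem _) _) ?_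
  rw [map_mul, map_mul, map_inv, map_zpow, hσ, R.psi_xg hp, R.psi_xg hp, conj_evenify, sign_liftP, liftP_inl]

omit hp in
theorem sign_cases (σ : Perm (ZMod p)) :
    ((Perm.sign σ : ℤˣ) : ℤ) = 1 ∨ ((Perm.sign σ : ℤˣ) : ℤ) = -1 := by
  rcases Int.units_eq_one_or (Perm.sign σ) with h | h <;> simp [h]

omit [NeZero p] [Fact p.Prime] hp in
theorem y_fix : Commute (w ^ 9) (w ^ M) := Commute.pow_pow_self w 9 M

/-- The generators attached to all the points. -/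
noncomputable def F (D : Data p d M) (a w : G) : ZMod p ⊕ Fin d → G :=
  Sum.elim (fun i => xg a (w ^ M) i) (fun j => w ^ 9 * xg a (w ^ M) (D.emb j) * (w ^ 9)⁻¹)

omit hp in
theorem KX_le : KX p a (w ^ M) ≤ Subgroup.closure (Set.range (F D a w)) :=
  Subgroup.closure_mono (by rintro _ ⟨i, rfl⟩; exact ⟨Sum.inl i, rfl⟩)

theorem w_eq (R : Rel0 D ψ a w) : w = w ^ 9 * (w ^ M) ^ M := by
  have h : w ^ (3 * M) = 1 := by rw [← R.r1, R.a_pow_p]
  rw [← pow_mul, ← pow_add, pow_eq_pow_mod (9 + M * M) h]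
  rcases D.hM with rfl | rfl <;> simp

theorem fam_bound' (R : Rel0 D ψ a w)
    (hcross : ∀ (i : ZMod p) (j : Fin d), (xg a (w ^ M) i * (w ^ 9 * xg a (w ^ M) (D.emb j) * (w ^ 9)⁻¹)) ^ 2 = 1) :
    Finite ↥(Subgroup.closure (Set.range (F D a w))) ∧
      2 * Nat.card ↥(Subgroup.closure (Set.range (F D a w))) ≤ (p + d + 2).factorial := by
  have hinj : Function.Injective D.emb := fun i j h => Sum.inr_injective (by rw [← D.y_emb i, ← D.y_emb j, h])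
  have h3 : ∀ k, F D a w k ^ 3 = 1 := by
    rintro (i | j) <;> simp only [F, Sum.elim_inl, Sum.elim_inr, xg, conj_pow, R.z_pow_three, mul_one,
      mul_inv_cancel]
  have hpair : ∀ k l, k ≠ l → (F D a w k * F D a w l) ^ 2 = 1 := by
    rintro (i | i) (j | j) hij
    · exact R.pair (fun h => hij (by rw [h]))
    · exact hcross i j
    · exact sq_swap (hcross j i)
    · exact sq_conj (R.pair (fun h => hij (by rw [hinj h])))
  obtain ⟨h1, h2⟩ := carmichael h3 hpair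
  rw [Fintype.card_sum, ZMod.card, Fintype.card_fin] at h2
  exact ⟨h1, h2⟩

end Rel0

namespace Rel

variable {D : Data p d M} {ψ : G →* Perm (Bool ⊕ (ZMod p ⊕ Fin d))} {a w : G}

theorem a_mem (R : Rel D ψ a w) : a ∈ KX p a (w ^ M) := by
  obtain ⟨b, hb, k, hk⟩ := R.r2'
  exact R.toRel0.a_mem' hb hk

variable [Fact p.Prime] (hp : Odd p)
include hp

theorem y_conj (R : Rel D ψ a w) {t : ZMod p} (ht : ∀ j, D.emb j ≠ t) :
    w ^ 9 * xg a (w ^ M) t * (w ^ 9)⁻¹ ∈ KX p a (w ^ M) := by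
  obtain ⟨h, hh, hh0, hh1⟩ := R.r4
  have h0 : (0 : ZMod p) ∈ D.SH := by simp [Data.SH, D.emb_ne]
  have key : ∀ v ∈ D.SH, w ^ 9 * xg a (w ^ M) v * (w ^ 9)⁻¹ ∈ KX p a (w ^ M) := by
    refine cyc_induction h0 ?_ fun v _ hv => ?_
    · rw [Rel0.xg_zero, (Rel0.y_fix (w := w) (M := M)).eq, mul_inv_cancel_right]
      exact Rel0.z_mem
    · have e1 := R.toRel0.conj_of_mem hp hh hh0 v
      rw [← zpow_zpow_self (g := xg a (w ^ M) (cyc D.SH v)) (Rel0.sign_cases (cyc D.SH)), ← e1, ← conj_zpow]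
      refine zpow_mem ?_ _
      rw [show w ^ 9 * (h * xg a (w ^ M) v * h⁻¹) * (w ^ 9)⁻¹ = (w ^ 9 * h * (w ^ 9)⁻¹) *
        (w ^ 9 * xg a (w ^ M) v * (w ^ 9)⁻¹) * (w ^ 9 * h * (w ^ 9)⁻¹)⁻¹ by group]
      exact mul_mem (mul_mem hh1 hv) (inv_mem hh1)
  exact key t (by simp [Data.SH, ht])

theorem y_c0_eq (R : Rel D ψ a w) :
    w ^ 9 * xg a (w ^ M) D.c0 * (w ^ 9)⁻¹ = xg a (w ^ M) D.eps := by
  refine R.toRel0.inj hp (R.y_conj hp D.c0_emb) (Rel0.xg_mem _) ?_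
  rw [map_mul, map_mul, map_inv, map_pow, R.hw, D.wT_pow_nine, R.toRel0.psi_xg hp, R.toRel0.psi_xg hp, liftI_conj_star,
    D.y_c0]

theorem u_fix (R : Rel D ψ a w) {u q : G} (hu : u ∈ KX p a (w ^ M)) (hq : q ∈ KX p a (w ^ M))
    (hu0 : ψ u = evenify (liftP (cyc D.SU))) (hq0 : ψ q = evenify (liftP (cyc D.SQ)))
    (hc : Commute (w ^ 9 * u * (w ^ 9)⁻¹) q) {i : ZMod p} (hi : i ≠ D.eps) :
    (w ^ 9 * u * (w ^ 9)⁻¹) * xg a (w ^ M) i * (w ^ 9 * u * (w ^ 9)⁻¹)⁻¹ =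
      xg a (w ^ M) i ^ ((Perm.sign (cyc D.SU) : ℤˣ) : ℤ) := by
  have h0 : (0 : ZMod p) ∈ D.SQ := by simp [Data.SQ, D.eps_ne.symm]
  refine cyc_induction (P := fun i => (w ^ 9 * u * (w ^ 9)⁻¹) * xg a (w ^ M) i * (w ^ 9 * u * (w ^ 9)⁻¹)⁻¹ =
      xg a (w ^ M) i ^ ((Perm.sign (cyc D.SU) : ℤˣ) : ℤ)) h0 ?_ ?_ i (by simp [Data.SQ, hi])
  · have e1 := R.toRel0.conj_of_mem hp hu hu0 0
    rw [cyc_of_notMem (by simp [Data.SU, D.c0_ne.symm, D.emb_ne])] at e1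
    rw [Rel0.xg_zero] at e1 ⊢
    have hy : (w ^ 9)⁻¹ * w ^ M * (w ^ 9) = w ^ M := by
      rw [mul_assoc, ← Rel0.y_fix.eq, inv_mul_cancel_left]
    rw [show w ^ 9 * u * (w ^ 9)⁻¹ * w ^ M * (w ^ 9 * u * (w ^ 9)⁻¹)⁻¹ =
      w ^ 9 * (u * ((w ^ 9)⁻¹ * w ^ M * w ^ 9) * u⁻¹) * (w ^ 9)⁻¹ by group, hy, e1,
      (Rel0.y_fix.zpow_right _).eq, mul_inv_cancel_right]
  · intro v _ hv
    set U := w ^ 9 * u * (w ^ 9)⁻¹
    have e1 := R.toRel0.conj_of_mem hp hq hq0 v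
    have e2 : xg a (w ^ M) (cyc D.SQ v) = (q * xg a (w ^ M) v * q⁻¹) ^ ((Perm.sign (cyc D.SQ) : ℤˣ) : ℤ) := by
      rw [e1, zpow_zpow_self (Rel0.sign_cases _)]
    rw [e2, conj_zpow,
      show U * (q * (xg a (w ^ M) v ^ ((Perm.sign (cyc D.SQ) : ℤˣ) : ℤ)) * q⁻¹) * U⁻¹ =
      (U * q) * (xg a (w ^ M) v ^ ((Perm.sign (cyc D.SQ) : ℤˣ) : ℤ)) * (U * q)⁻¹ by group, hc.eq,
      show (q * U) * (xg a (w ^ M) v ^ ((Perm.sign (cyc D.SQ) : ℤˣ) : ℤ)) * (q * U)⁻¹ =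
      q * (U * (xg a (w ^ M) v ^ ((Perm.sign (cyc D.SQ) : ℤˣ) : ℤ)) * U⁻¹) * q⁻¹ by group,
      ← conj_zpow (a := U), hv, conj_zpow (a := q), ← zpow_mul, ← zpow_mul, Int.mul_comm]

theorem cross (R : Rel D ψ a w) {i : ZMod p} (j : Fin d) :
    (xg a (w ^ M) i * (w ^ 9 * xg a (w ^ M) (D.emb j) * (w ^ 9)⁻¹)) ^ 2 = 1 := by
  by_cases hi : i = D.eps
  · rw [hi, ← R.y_c0_eq hp]
    exact sq_conj (R.toRel0.pair (D.c0_emb j).symm)
  obtain ⟨u, hu, q, hq, hu0, hq0, hc⟩ := R.r6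
  have key : ∀ t ∈ D.SU, ∀ i, i ≠ D.eps →
      (xg a (w ^ M) i * (w ^ 9 * xg a (w ^ M) t * (w ^ 9)⁻¹)) ^ 2 = 1 := by
    refine cyc_induction (t := D.c0) (by simp [Data.SU]) ?_ fun v _ hv i hi => ?_
    · intro i hi
      rw [R.y_c0_eq hp]
      exact R.toRel0.pair hi
    · have h := sq_conj (u := w ^ 9 * u * (w ^ 9)⁻¹) (hv i hi)
      rw [R.u_fix hp hu hq hu0 hq0 hc hi] at h
      have e2 : (w ^ 9 * u * (w ^ 9)⁻¹) * (w ^ 9 * xg a (w ^ M) v * (w ^ 9)⁻¹) * (w ^ 9 * u * (w ^ 9)⁻¹)⁻¹ =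
          (w ^ 9 * xg a (w ^ M) (cyc D.SU v) * (w ^ 9)⁻¹) ^ ((Perm.sign (cyc D.SU) : ℤˣ) : ℤ) := by
        rw [conj_zpow, ← R.toRel0.conj_of_mem hp hu hu0 v]
        group
      rw [e2] at h
      have h2 := sq_zpow (Rel0.sign_cases (cyc D.SU)) h
      rwa [zpow_zpow_self (Rel0.sign_cases _), zpow_zpow_self (Rel0.sign_cases _)] at h2
  exact key _ (by simp [Data.SU]) i hi

theorem fam_bound (R : Rel D ψ a w) :
    Finite ↥(Subgroup.closure (Set.range (Rel0.F D a w))) ∧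
      2 * Nat.card ↥(Subgroup.closure (Set.range (Rel0.F D a w))) ≤ (p + d + 2).factorial :=
  R.toRel0.fam_bound' hp fun _ j => R.cross hp j

theorem sym_bound (R : Rel D ψ a w) (hM : M = 2) :
    Finite G ∧ Nat.card G ≤ (p + d + 2).factorial := by
  set K := Subgroup.closure (Set.range (Rel0.F D a w)) with hK
  obtain ⟨hfin, hcard⟩ := R.fam_bound hp
  have hy2 : w ^ 9 * w ^ 9 = 1 := by
    rw [← pow_add, pow_eq_pow_mod (9 + 9) (show w ^ 6 = 1 by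
      have := R.toRel0.r1; rw [R.toRel0.a_pow_p, hM] at this; exact this.symm)]
    simp
  have hyinv : (w ^ 9)⁻¹ = w ^ 9 := inv_eq_of_mul_eq_one_right hy2
  have hyK : ∀ g ∈ K, w ^ 9 * g * (w ^ 9)⁻¹ ∈ K := by
    have : K ≤ K.comap (MulAut.conj (w ^ 9)).toMonoidHom := by
      conv_lhs => rw [hK]
      rw [Subgroup.closure_le]
      rintro _ ⟨i | j, rfl⟩
      · show w ^ 9 * xg a (w ^ M) i * (w ^ 9)⁻¹ ∈ K
        by_cases h : ∀ j, D.emb j ≠ i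
        · exact Rel0.KX_le (R.y_conj hp h)
        · push Not at h
          obtain ⟨j, rfl⟩ := h
          exact Subgroup.subset_closure ⟨Sum.inr j, rfl⟩
      · show w ^ 9 * (w ^ 9 * xg a (w ^ M) (D.emb j) * (w ^ 9)⁻¹) * (w ^ 9)⁻¹ ∈ K
        rw [show w ^ 9 * (w ^ 9 * xg a (w ^ M) (D.emb j) * (w ^ 9)⁻¹) * (w ^ 9)⁻¹ =
          (w ^ 9 * w ^ 9) * xg a (w ^ M) (D.emb j) * (w ^ 9 * w ^ 9)⁻¹ by group, hy2]
        simpa using Rel0.KX_le (D := D) (Rel0.xg_mem (a := a) (w := w) (D.emb j))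
    exact fun g hg => this hg
  set S : Set G := (K : Set G) ∪ (fun g => w ^ 9 * g) '' (K : Set G) with hS
  have hz : (w ^ M) ^ M ∈ K := by
    exact pow_mem (Rel0.KX_le Rel0.z_mem) _
  have hKS : ∀ k ∈ K, ∀ g ∈ S, k * g ∈ S := by
    rintro k hk g (hg | ⟨g, hg, rfl⟩)
    · exact Or.inl (mul_mem hk hg)
    · refine Or.inr ⟨(w ^ 9)⁻¹ * k * w ^ 9 * g, mul_mem ?_ hg, by group⟩
      have := hyK k hk
      rw [hyinv] at this ⊢
      exact this
  have hyS : ∀ g ∈ S, w ^ 9 * g ∈ S := by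
    rintro g (hg | ⟨g, hg, rfl⟩)
    · exact Or.inr ⟨g, hg, rfl⟩
    · exact Or.inl (by rw [← mul_assoc, hy2, one_mul]; exact hg)
  have hsub : ∀ g : G, g ∈ S := by
    intro g
    have : (Subgroup.closure {a, w} : Set G) ⊆ S := by
      refine closure_subset_of_mul_stable (Or.inl (one_mem K)) ?_ ?_
      · rintro t (rfl | rfl) g hg
        · exact hKS _ (Rel0.KX_le R.a_mem) g hg
        · rw [R.toRel0.w_eq hp, mul_assoc]; exact hyS _ (hKS _ hz g hg)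
      · rintro t (rfl | rfl) g hg
        · exact hKS _ (inv_mem (Rel0.KX_le R.a_mem)) g hg
        · rw [R.toRel0.w_eq hp, mul_inv_rev, hyinv, mul_assoc]; exact hKS _ (inv_mem hz) _ (hyS g hg)
    exact this (by rw [R.gen]; exact Set.mem_univ _)
  have hKf : (K : Set G).Finite := Set.toFinite _
  have huniv : (Set.univ : Set G) ⊆ S := fun g _ => hsub g
  have hSf : S.Finite := hKf.union (hKf.image _)
  haveI : Finite G := Set.finite_univ_iff.mp (hSf.subset huniv)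
  refine ⟨inferInstance, ?_⟩
  have h1 : Nat.card G ≤ S.ncard := by
    rw [← Set.ncard_univ]; exact Set.ncard_le_ncard huniv hSf
  have h2 : S.ncard ≤ Nat.card K + Nat.card K := by
    refine (Set.ncard_union_le _ _).trans (Nat.add_le_add ?_ ?_)
    · rw [← Nat.card_coe_set_eq]; rfl
    · refine (Set.ncard_image_le hKf).trans ?_
      rw [← Nat.card_coe_set_eq]; rfl
  rw [← hK] at hcard
  omega

end Rel

end CfsgLib.ShortPres
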