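/-
Presentations with few relations: general lemmas.
-/
import Mathlib

set_option autoImplicit false

namespace CfsgLib.ShortPres

universe u

/-- A presentation with `k` generators and at most `r` relations. -/
def HasPres (Γ : Type u) [Group Γ] (k r : ℕ) : Prop :=
  ∃ rels : Finset (FreeGroup (Fin k)), rels.card ≤ r ∧
    Nonempty (PresentedGroup (↑rels : Set (FreeGroup (Fin k))) ≃* Γ)

theorem HasPres.mono {Γ : Type u} [Group Γ] {k r r' : ℕ} (h : HasPres Γ k r) (hr : r ≤ r') :
    HasPres Γ k r' :=
  h.imp fun _ h => ⟨h.1.trans hr, h.2⟩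

theorem HasPres.congr {Γ Γ' : Type u} [Group Γ] [Group Γ'] {k r : ℕ} (h : HasPres Γ k r) (e : Γ ≃* Γ') :
    HasPres Γ' k r :=
  h.imp fun _ h => ⟨h.1, h.2.map (·.trans e)⟩

theorem hasPres_of_list {Γ : Type} [Group Γ] {k r : ℕ} (τ : FreeGroup (Fin k) →* Γ)
    (L : List (FreeGroup (Fin k))) (hL : L.length ≤ r) (hτ : ∀ l ∈ L, τ l = 1) (H : Subgroup Γ)
    [Finite H] (hrange : τ.range = H)
    (hbound : ∀ (G : Type) [Group G] (φ : FreeGroup (Fin k) →* G) (ψ : G →* Γ),
      Function.Surjective φ → (∀ l ∈ L, φ l = 1) → ψ.comp φ = τ →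
        Finite G ∧ Nat.card G ≤ Nat.card H) :
    HasPres H k r := by
  classical
  refine ⟨L.toFinset, (List.toFinset_card_le L).trans hL, ?_⟩
  set R : Set (FreeGroup (Fin k)) := ↑L.toFinset with hR
  have hkill : ∀ l ∈ R, FreeGroup.lift (fun i => τ (FreeGroup.of i)) l = 1 := by
    intro l hl
    have e : FreeGroup.lift (fun i => τ (FreeGroup.of i)) = τ := by ext i; simp
    rw [e]
    exact hτ l (by simpa [R] using hl)
  set ψ := PresentedGroup.toGroup hkill with hψ
  have hψτ : ψ.comp (PresentedGroup.mk R) = τ := by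
    ext i
    exact PresentedGroup.toGroup.of hkill
  obtain ⟨hfin, hcard⟩ := hbound (PresentedGroup R) (PresentedGroup.mk R) ψ
    (PresentedGroup.mk_surjective R) (fun l hl => PresentedGroup.one_of_mem (by simp [R, hl])) hψτ
  have hr : ψ.range = H := by
    rw [← hrange, ← hψτ, MonoidHom.range_comp,
      MonoidHom.range_eq_top.mpr (PresentedGroup.mk_surjective R), MonoidHom.range_eq_map]
  have hbij : Function.Bijective ψ.rangeRestrict :=
    (Nat.bijective_iff_surjective_and_card _).mpr
      ⟨ψ.rangeRestrict_surjective, le_antisymm (by rw [hr]; exact hcard)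
        (Nat.card_le_card_of_surjective _ ψ.rangeRestrict_surjective)⟩
  exact ⟨(MulEquiv.ofBijective ψ.rangeRestrict hbij).trans (MulEquiv.subgroupCongr hr)⟩

/-- Any generating pair satisfies a presentation with two more relations. -/
theorem HasPres.pair {Γ : Type} [Group Γ] {k r : ℕ} (h : HasPres Γ k r) {a b : Γ}
    (hab : Subgroup.closure ({a, b} : Set Γ) = ⊤) :
    ∃ rels : Finset (FreeGroup (Fin 2)), rels.card ≤ r + 2 ∧
      ∃ e : PresentedGroup (↑rels : Set (FreeGroup (Fin 2))) ≃* Γ,
        e (PresentedGroup.of 0) = a ∧ e (PresentedGroup.of 1) = b := by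
  classical
  obtain ⟨rels, hcard, ⟨e⟩⟩ := h
  set R : Set (FreeGroup (Fin k)) := ↑rels
  set η : FreeGroup (Fin 2) →* Γ := FreeGroup.lift ![a, b] with hη
  have hηsurj : Function.Surjective η := by
    rw [← MonoidHom.range_eq_top, eq_top_iff, ← hab, Subgroup.closure_le]
    rintro x (rfl | rfl)
    · exact ⟨FreeGroup.of 0, by simp [η]⟩
    · exact ⟨FreeGroup.of 1, by simp [η]⟩
  choose wd hwd using fun i => hηsurj (e (PresentedGroup.of i))
  have hmk := e.surjective.comp (PresentedGroup.mk_surjective R)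
  obtain ⟨u0, hu0⟩ := hmk a
  obtain ⟨u1, hu1⟩ := hmk b
  set σ : FreeGroup (Fin k) →* FreeGroup (Fin 2) := FreeGroup.lift wd
  have hησ : η.comp σ = e.toMonoidHom.comp (PresentedGroup.mk R) := by
    ext i
    simp only [MonoidHom.comp_apply, σ, FreeGroup.lift_apply_of, hwd]
    rfl
  have hησ' : ∀ g, η (σ g) = e (PresentedGroup.mk R g) := fun g => DFunLike.congr_fun hησ g
  obtain ⟨rels', hrels'⟩ : ∃ r' : Finset (FreeGroup (Fin 2)),
      r' = insert ((FreeGroup.of 0)⁻¹ * σ u0) (insert ((FreeGroup.of 1)⁻¹ * σ u1) (rels.image σ)) :=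
    ⟨_, rfl⟩
  refine ⟨rels', ?_, ?_⟩
  · rw [hrels']
    refine (Finset.card_insert_le _ _).trans (Nat.succ_le_succ ((Finset.card_insert_le _ _).trans
      (Nat.succ_le_succ (Finset.card_image_le.trans hcard))))
  have hkill : ∀ l ∈ (↑rels' : Set (FreeGroup (Fin 2))), η l = 1 := by
    intro l hl
    simp only [hrels', Finset.mem_coe, Finset.mem_insert, Finset.mem_image] at hl
    rcases hl with rfl | rfl | ⟨l, hl, rfl⟩
    · rw [map_mul, map_inv, hησ']
      simp only [Function.comp_apply] at hu0
      rw [hu0]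
      simp [η]
    · rw [map_mul, map_inv, hησ']
      simp only [Function.comp_apply] at hu1
      rw [hu1]
      simp [η]
    · rw [hησ', PresentedGroup.one_of_mem hl, map_one]
  set F := PresentedGroup.toGroup (rels := (↑rels' : Set (FreeGroup (Fin 2)))) (f := ![a, b]) hkill with hF
  have hkill' : ∀ l ∈ R, FreeGroup.lift (fun i => PresentedGroup.mk (↑rels' : Set _) (wd i)) l = 1 := by
    intro l hl
    have : FreeGroup.lift (fun i => PresentedGroup.mk (↑rels' : Set _) (wd i)) =
        (PresentedGroup.mk (↑rels' : Set _)).comp σ := by ext i; simp [σ]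
    rw [this]
    exact PresentedGroup.one_of_mem (by
      simp only [hrels', Finset.mem_coe, Finset.mem_insert, Finset.mem_image]
      exact Or.inr (Or.inr ⟨l, hl, rfl⟩))
  set H := (PresentedGroup.toGroup hkill').comp e.symm.toMonoidHom with hH
  have hHσ : ∀ g, H (e (PresentedGroup.mk R g)) = PresentedGroup.mk (↑rels' : Set _) (σ g) := by
    intro g
    show PresentedGroup.toGroup hkill' (e.symm (e (PresentedGroup.mk R g))) = _
    rw [e.symm_apply_apply]
    have key : (PresentedGroup.toGroup hkill').comp (PresentedGroup.mk R) =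
        (PresentedGroup.mk (↑rels' : Set (FreeGroup (Fin 2)))).comp σ := by
      refine FreeGroup.ext_hom _ _ fun i => ?_
      rw [MonoidHom.comp_apply, MonoidHom.comp_apply]
      simp only [σ, FreeGroup.lift_apply_of]
      exact PresentedGroup.toGroup.of hkill'
    exact DFunLike.congr_fun key g
  have hF0 : F (PresentedGroup.of 0) = a := PresentedGroup.toGroup.of hkill
  have hF1 : F (PresentedGroup.of 1) = b := PresentedGroup.toGroup.of hkill
  have hHF : H.comp F = MonoidHom.id _ := by
    refine PresentedGroup.ext fun j => ?_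
    fin_cases j
    · show H (F (PresentedGroup.of 0)) = PresentedGroup.of 0
      rw [hF0, ← hu0]
      refine (hHσ u0).trans ?_
      have : PresentedGroup.mk (↑rels' : Set _) ((FreeGroup.of 0)⁻¹ * σ u0) = 1 :=
        PresentedGroup.one_of_mem (by simp [hrels'])
      rw [map_mul, map_inv, inv_mul_eq_one] at this
      exact this.symm
    · show H (F (PresentedGroup.of 1)) = PresentedGroup.of 1
      rw [hF1, ← hu1]
      refine (hHσ u1).trans ?_
      have : PresentedGroup.mk (↑rels' : Set _) ((FreeGroup.of 1)⁻¹ * σ u1) = 1 :=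
        PresentedGroup.one_of_mem (by simp [hrels'])
      rw [map_mul, map_inv, inv_mul_eq_one] at this
      exact this.symm
  have hFH : F.comp H = MonoidHom.id _ := by
    ext g
    obtain ⟨x, rfl⟩ := hmk g
    show F (H (e (PresentedGroup.mk R x))) = e (PresentedGroup.mk R x)
    rw [hHσ, ← hησ']
    have key : F.comp (PresentedGroup.mk (↑rels' : Set (FreeGroup (Fin 2)))) = η := by
      refine FreeGroup.ext_hom _ _ fun i => ?_
      rw [MonoidHom.comp_apply, hη, FreeGroup.lift_apply_of]
      exact PresentedGroup.toGroup.of hkill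
    exact DFunLike.congr_fun key (σ x)
  exact ⟨F.toMulEquiv H hHF hFH, hF0, hF1⟩

theorem exists_word {A B : Type*} [Group A] [Group B] (f : A →* B) {s : Set A} {v : B}
    (hv : v ∈ Subgroup.closure (f '' s)) : ∃ W ∈ Subgroup.closure s, f W = v := by
  rwa [← MonoidHom.map_closure, Subgroup.mem_map] at hv

end CfsgLib.ShortPres
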