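/-
Two-generator presentations with six or seven relations, given the block data.
-/
import Cfsg.Agent.Lib.ShortPres.Core
import Cfsg.Agent.Lib.ShortPres.Pres

set_option autoImplicit false

namespace CfsgLib.ShortPres

open Equiv

variable {p d M : ℕ}

theorem map_xg {A B : Type*} [Group A] [Group B] (f : A →* B) (a z : A) (i : ZMod p) :
    f (xg a z i) = xg (f a) (f z) i := by
  simp [xg]

theorem map_KX {A B : Type*} [Group A] [Group B] (f : A →* B) (a z : A) {g : A} (hg : g ∈ KX p a z) :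
    f g ∈ KX p (f a) (f z) := by
  have : (KX p a z).map f = KX p (f a) (f z) := by
    rw [KX, MonoidHom.map_closure, KX, ← Set.range_comp]
    simp only [Function.comp_def, map_xg]
  exact this ▸ Subgroup.mem_map_of_mem f hg

variable [Fact p.Prime]

/-- The value of the two letters. -/
def tau (D : Data p d M) : FreeGroup (Fin 2) →* Perm (Bool ⊕ (ZMod p ⊕ Fin d)) :=
  FreeGroup.lift ![aT d, D.wT]

theorem tau_zero (D : Data p d M) : tau D (FreeGroup.of 0) = aT d := by simp [tau]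

theorem tau_one (D : Data p d M) : tau D (FreeGroup.of 1) = D.wT := by simp [tau]

/-- The first letter. -/
abbrev la : FreeGroup (Fin 2) := FreeGroup.of 0

/-- The second letter. -/
abbrev lw : FreeGroup (Fin 2) := FreeGroup.of 1

theorem tau_xg (hp : Odd p) (D : Data p d M) (i : ZMod p) :
    tau D (xg la (lw ^ M) i) = star (Sum.inl i : ZMod p ⊕ Fin d) := by
  rw [map_xg, map_pow, tau_zero, tau_one, D.wT_pow_M, xg, aT_pow_conj hp, zero_add,
    ZMod.natCast_zmod_val]

theorem word (hp : Odd p) (D : Data p d M) {v : Perm (Bool ⊕ (ZMod p ⊕ Fin d))} (hv : v ∈ KT p d) :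
    ∃ W ∈ KX p la (lw ^ M), tau D W = v := by
  refine exists_word (tau D) ?_
  rw [← Set.range_comp]
  simpa only [Function.comp_def, tau_xg hp, KT] using hv

theorem exists_primitive_root (hp : Odd p) :
    ∃ r s : ZMod p, r ≠ 0 ∧ r * s + 1 = s ∧ ∀ t : ZMod p, t ≠ 0 → ∃ k : ℕ, r ^ k = t := by
  haveI := ZMod.isCyclic_units_prime (Fact.out : p.Prime)
  obtain ⟨g, hg⟩ := IsCyclic.exists_monoid_generator (α := (ZMod p)ˣ)
  have h2 : 2 ≤ p := (Fact.out : p.Prime).two_le
  have hg1 : (g : ZMod p) ≠ 1 := by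
    intro h
    obtain ⟨k, hk⟩ := Submonoid.mem_powers_iff _ _ |>.mp (hg (-1))
    rw [Units.val_eq_one.mp h, one_pow] at hk
    have h3 : (-1 : ZMod p) = 1 := by
      have := congrArg (fun u : (ZMod p)ˣ => (u : ZMod p)) hk
      simpa using this.symm
    haveI : Fact (2 < p) := ⟨by rcases hp with ⟨m, rfl⟩; omega⟩
    exact ZMod.neg_one_ne_one h3
  refine ⟨g, (1 - (g : ZMod p))⁻¹, g.ne_zero, ?_, fun t ht => ?_⟩
  · have : (1 : ZMod p) - g ≠ 0 := sub_ne_zero.mpr hg1.symm
    field_simp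
    ring
  · obtain ⟨k, hk⟩ := Submonoid.mem_powers_iff _ _ |>.mp (hg (Units.mk0 t ht))
    exact ⟨k, by rw [← Units.val_pow_eq_pow_val, hk]; rfl⟩

theorem six (hp : Odd p) (D : Data p d M) :
    ∃ L : List (FreeGroup (Fin 2)), L.length = 6 ∧ (∀ l ∈ L, tau D l = 1) ∧
      ∀ (G : Type) [Group G] (φ : FreeGroup (Fin 2) →* G) (ψ : G →* Perm (Bool ⊕ (ZMod p ⊕ Fin d))),
        Function.Surjective φ → (∀ l ∈ L, φ l = 1) → ψ.comp φ = tau D → Rel D ψ (φ la) (φ lw) := by
  obtain ⟨r, s, hr0, hrs, hgen⟩ := exists_primitive_root (p := p) hp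
  set μ : Perm (ZMod p) := Equiv.mulLeft₀ r hr0 with hμ
  obtain ⟨b, hb, hbv⟩ := word hp D (evenify_liftP_mem μ)
  obtain ⟨h, hh, hhv⟩ := word hp D (evenify_liftP_mem (cyc D.SH))
  obtain ⟨h1, hh1, hh1v⟩ := word hp D D.conj_hT
  obtain ⟨u, hu, huv⟩ := word hp D (evenify_liftP_mem (cyc D.SU))
  obtain ⟨q, hq, hqv⟩ := word hp D (evenify_liftP_mem (cyc D.SQ))
  set e : ℤ := ((Perm.sign μ : ℤˣ) : ℤ) with he
  refine ⟨[la ^ p * (lw ^ (3 * M))⁻¹,
    b * la ^ ((r * s).val + 1) * b⁻¹ * (la ^ (r * s).val)⁻¹,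
    b * lw ^ M * b⁻¹ * ((lw ^ M) ^ e)⁻¹,
    (lw ^ M * (la * lw ^ M * la⁻¹)) ^ 2,
    lw ^ 9 * h * (lw ^ 9)⁻¹ * h1⁻¹,
    (lw ^ 9 * u * (lw ^ 9)⁻¹) * q * (q * (lw ^ 9 * u * (lw ^ 9)⁻¹))⁻¹], rfl, ?_, ?_⟩
  · intro l hl
    simp only [List.mem_cons, List.not_mem_nil, or_false] at hl
    rcases hl with rfl | rfl | rfl | rfl | rfl | rfl
    · rw [map_mul, map_inv, map_pow, map_pow, tau_zero, tau_one, aT_pow_p, D.wT_pow_three_M, inv_one, one_mul]
    · simp only [map_mul, map_inv, map_pow, tau_zero, hbv]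
      rw [mul_inv_eq_one, aT, ← map_pow, ← map_pow, ← map_pow, ← map_pow, ← map_inv, ← map_mul, ← map_mul, ← map_inv,
        ← map_mul, ← map_mul]
      congr 2
      ext t
      rw [Perm.mul_apply, Perm.mul_apply, shift_pow_apply, shift_pow_apply]
      have hinv : μ⁻¹ t = r⁻¹ * t := rfl
      rw [hinv]
      show r * (r⁻¹ * t + ((((r * s).val + 1 : ℕ)) : ZMod p)) = t + (((r * s).val : ℕ) : ZMod p)
      rw [Nat.cast_add, Nat.cast_one, ZMod.natCast_zmod_val, hrs, mul_add, mul_inv_cancel_left₀ hr0]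
    · simp only [map_mul, map_inv, map_pow, map_zpow, tau_one, D.wT_pow_M, hbv]
      rw [mul_inv_eq_one, conj_evenify, liftP_inl, sign_liftP, he]
      congr 3
      show r * 0 = 0
      rw [mul_zero]
    · simp only [map_mul, map_inv, map_pow, tau_zero, tau_one, D.wT_pow_M]
      have := aT_pow_conj (p := p) (d := d) hp 1 0
      rw [pow_one] at this
      rw [this]
      exact star_pair (by simp)
    · simp only [map_mul, map_inv, map_pow, tau_one, D.wT_pow_nine, hhv, hh1v, mul_inv_cancel]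
    · simp only [map_mul, map_inv, map_pow, tau_one, D.wT_pow_nine, huv, hqv]
      rw [mul_inv_eq_one]
      have := D.commute_uq.eq
      rw [this]
  · intro G _ φ ψ hsurj hkill hψ
    simp only [List.mem_cons, List.not_mem_nil, or_false, forall_eq_or_imp, forall_eq] at hkill
    obtain ⟨k1, k2, k3, k4, k5, k6⟩ := hkill
    simp only [map_mul, map_inv, map_pow, map_zpow, mul_inv_eq_one] at k1 k2 k3 k4 k5 k6
    have hψ' : ∀ g, ψ (φ g) = tau D g := fun g => DFunLike.congr_fun hψ g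
    have hmem : ∀ {g}, g ∈ KX p la (lw ^ M) → φ g ∈ KX p (φ la) (φ lw ^ M) := fun hg => by
      have := map_KX φ _ _ hg
      rwa [map_pow] at this
    refine
      { gen := ?_
        ha := by rw [hψ', tau_zero]
        hw := by rw [hψ', tau_one]
        r1 := k1
        r2 := ⟨φ b, r, s, hgen, hrs, k2, e, Rel0.sign_cases μ, k3⟩
        r2' := ⟨φ b, hmem hb, (r * s).val, k2⟩
        r4 := ⟨φ h, hmem hh, by rw [hψ', hhv], k5 ▸ hmem hh1⟩
        r5 := k4
        r6 := ⟨φ u, hmem hu, φ q, hmem hq, by rw [hψ', huv], by rw [hψ', hqv], k6⟩ }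
    have := MonoidHom.map_closure φ (Set.range (FreeGroup.of : Fin 2 → FreeGroup (Fin 2)))
    rw [FreeGroup.closure_range_of, Subgroup.map_top_of_surjective φ hsurj, ← Set.range_comp] at this
    rw [this]
    congr 1
    ext g
    simp [Fin.exists_fin_two, eq_comm]

/-- The words attached to all the points. -/
noncomputable abbrev FW (D : Data p d M) : ZMod p ⊕ Fin d → FreeGroup (Fin 2) := Rel0.F D la lw

theorem tau_FW (hp : Odd p) (D : Data p d M) (i : ZMod p ⊕ Fin d) : tau D (FW D i) = star i := by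
  rcases i with i | j
  · exact tau_xg hp D i
  · show tau D (lw ^ 9 * xg la (lw ^ M) (D.emb j) * (lw ^ 9)⁻¹) = _
    rw [map_mul, map_mul, map_inv, map_pow, tau_one, D.wT_pow_nine, tau_xg hp, liftI_conj_star, D.y_emb]

theorem alt_le_range (hp : Odd p) (D : Data p d M) :
    alternatingGroup (Bool ⊕ (ZMod p ⊕ Fin d)) ≤ (tau D).range := by
  rw [← closure_star, Subgroup.closure_le]
  rintro _ ⟨i, rfl⟩
  exact ⟨FW D i, tau_FW hp D i⟩

theorem sign_wT (D : Data p d M) : Perm.sign D.wT = Perm.sign D.y := by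
  rw [Data.wT, map_mul, map_pow, sign_liftI, sign_star, one_pow, mul_one]

theorem sym_block (hp : Odd p) (D : Data p d 2) (hs : Perm.sign D.y = -1) :
    HasPres (Perm (Bool ⊕ (ZMod p ⊕ Fin d))) 2 6 := by
  obtain ⟨L, hlen, hL, hrel⟩ := six hp D
  refine (hasPres_of_list (tau D) L hlen.le hL ⊤ ?_ ?_).congr Subgroup.topEquiv
  · rw [eq_top_iff]
    intro g _
    rcases Int.units_eq_one_or (Perm.sign g) with h | h
    · exact alt_le_range hp D h
    · have h1 : g * D.wT ∈ alternatingGroup _ := by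
        show Perm.sign (g * D.wT) = 1
        rw [map_mul, h, sign_wT, hs]; rfl
      have h2 := mul_mem (alt_le_range hp D h1) (inv_mem (⟨lw, tau_one D⟩ : D.wT ∈ (tau D).range))
      rwa [mul_inv_cancel_right] at h2
  · intro G _ φ ψ hsurj hkill hψ
    obtain ⟨h1, h2⟩ := (hrel G φ ψ hsurj hkill hψ).sym_bound hp rfl
    refine ⟨h1, ?_⟩
    rw [Subgroup.card_top, Nat.card_eq_fintype_card (α := Perm (Bool ⊕ (ZMod p ⊕ Fin d))), Fintype.card_perm, Fintype.card_sum, Fintype.card_bool,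
      Fintype.card_sum, ZMod.card, Fintype.card_fin, add_comm 2]
    exact h2

end CfsgLib.ShortPres
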