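/-
Six relations on two generators for the alternating groups.
-/
import Cfsg.Agent.Lib.ShortPres.Block

set_option autoImplicit false

namespace CfsgLib.ShortPres

open Equiv

variable {p d M : ℕ} {G : Type*} [Group G]

/-- The exchanged points of the block. -/
def Data.SE [NeZero p] (D : Data p d M) : Finset (ZMod p) := Finset.univ.image D.emb

/-- The relations for the alternating group. -/
structure RelA [NeZero p] (D : Data p d M) (ψ : G →* Perm (Bool ⊕ (ZMod p ⊕ Fin d))) (a w : G) : Prop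
    extends Rel0 D ψ a w where
  r2A : ∃ b1 ∈ KX p a (w ^ M), ∃ g ∈ KX p a (w ^ M), ∃ r s : ZMod p, ∃ μ : Perm (ZMod p),
    ψ b1 = evenify (liftP μ) ∧ (∀ i, μ i = r * i) ∧ r ≠ 0 ∧ r ≠ 1 ∧
      ψ g = evenify (liftP (cyc D.SE)) ∧ r * s + 1 = s ∧
      b1 * (w ^ 9 * g * (w ^ 9)⁻¹) * a ^ ((r * s).val + 1) * (b1 * (w ^ 9 * g * (w ^ 9)⁻¹))⁻¹ =
        a ^ (r * s).val ∧
      b1 * (w ^ 9 * g * (w ^ 9)⁻¹) * w ^ M * (b1 * (w ^ 9 * g * (w ^ 9)⁻¹))⁻¹ =
        (w ^ M) ^ (((Perm.sign μ : ℤˣ) : ℤ) * ((Perm.sign (cyc D.SE) : ℤˣ) : ℤ))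
  r4A : ∀ j : Fin d, j.val = 0 → Commute a (w ^ 9 * xg a (w ^ M) (D.emb j) * (w ^ 9)⁻¹)
  r7 : w ^ 9 ∈ Subgroup.closure (Set.range (Rel0.F D a w))

namespace RelA

variable [Fact p.Prime] {D : Data p d M} {ψ : G →* Perm (Bool ⊕ (ZMod p ⊕ Fin d))} {a w : G}

theorem alt_bound (hp : Odd p) (R : RelA D ψ a w) :
    Finite G ∧ 2 * Nat.card G ≤ (p + d + 2).factorial := by
  have R0 := R.toRel0
  obtain ⟨b1, hb1, g, hg, r, s, μ, hb1v, hμ, hr0, hr1, hgv, hrs, hba, hbz⟩ := R.r2A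
  set eg : ℤ := ((Perm.sign (cyc D.SE) : ℤˣ) : ℤ) with heg
  set em : ℤ := ((Perm.sign μ : ℤˣ) : ℤ) with hem
  set Y := w ^ 9 * g * (w ^ 9)⁻¹ with hYdef
  obtain ⟨hA, hX⟩ := R0.conj_b hrs hba hbz
  have hYx : ∀ i : ZMod p, Y * xg a (w ^ M) i * Y⁻¹ = xg a (w ^ M) i ^ eg := by
    intro i
    have e1 := hX i
    rw [show b1 * Y * xg a (w ^ M) i * (b1 * Y)⁻¹ = b1 * (Y * xg a (w ^ M) i * Y⁻¹) * b1⁻¹ by group,
      zpow_mul, ← hμ i, ← R0.conj_of_mem hp hb1 hb1v i, conj_zpow] at e1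
    exact mul_left_cancel (mul_right_cancel e1)
  have hYX : ∀ t : ZMod p, Y * (w ^ 9 * xg a (w ^ M) t * (w ^ 9)⁻¹) * Y⁻¹ =
      (w ^ 9 * xg a (w ^ M) (cyc D.SE t) * (w ^ 9)⁻¹) ^ eg := by
    intro t
    rw [conj_zpow, heg, ← R0.conj_of_mem hp hg hgv t, hYdef]
    group
  have hYX' : ∀ t : ZMod p, w ^ 9 * xg a (w ^ M) (cyc D.SE t) * (w ^ 9)⁻¹ =
      (Y * (w ^ 9 * xg a (w ^ M) t * (w ^ 9)⁻¹) * Y⁻¹) ^ eg := by
    intro t
    rw [hYX, zpow_zpow_self (Rel0.sign_cases _)]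
  have hinduct : ∀ (P : ZMod p → Prop), (∀ j : Fin d, j.val = 0 → P (D.emb j)) →
      (∀ v, P v → P (cyc D.SE v)) → ∀ j, P (D.emb j) := by
    intro P h0 hs j
    exact cyc_induction (s := D.SE) (t := D.emb ⟨0, j.pos⟩) (by simp [Data.SE]) (h0 _ rfl)
      (fun v _ hv => hs v hv) _ (by simp [Data.SE])
  have hcross : ∀ (i : ZMod p) (j : Fin d),
      (xg a (w ^ M) i * (w ^ 9 * xg a (w ^ M) (D.emb j) * (w ^ 9)⁻¹)) ^ 2 = 1 := by
    intro i j
    refine hinduct (fun t => ∀ i, (xg a (w ^ M) i * (w ^ 9 * xg a (w ^ M) t * (w ^ 9)⁻¹)) ^ 2 = 1) ?_ ?_ j i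
    · intro j hj i
      have h1 := sq_conj (u := w ^ 9) (R0.pair (i := (0 : ZMod p)) (D.emb_ne j).symm)
      rw [Rel0.xg_zero, (Rel0.y_fix (w := w) (M := M)).eq, mul_inv_cancel_right] at h1
      have h2 := sq_conj (u := a ^ i.val) h1
      rwa [((R.r4A j hj).pow_left i.val).eq, mul_inv_cancel_right] at h2
    · intro v hv i
      have h1 := sq_conj (u := Y) (hv i)
      rw [hYx, hYX] at h1
      have h2 := sq_zpow (Rel0.sign_cases (cyc D.SE)) h1
      rwa [zpow_zpow_self (Rel0.sign_cases _), zpow_zpow_self (Rel0.sign_cases _)] at h2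
  obtain ⟨hfin, hcard⟩ := R0.fam_bound' hp hcross
  set K := Subgroup.closure (Set.range (Rel0.F D a w)) with hK
  have hF : ∀ i, ψ (Rel0.F D a w i) = star i := by
    rintro (i | j)
    · exact R0.psi_xg hp i
    · show ψ (w ^ 9 * xg a (w ^ M) (D.emb j) * (w ^ 9)⁻¹) = _
      rw [map_mul, map_mul, map_inv, map_pow, R0.hw, D.wT_pow_nine, R0.psi_xg hp, liftI_conj_star, D.y_emb]
  have hKmap : K.map ψ = alternatingGroup (Bool ⊕ (ZMod p ⊕ Fin d)) := by
    rw [hK, MonoidHom.map_closure, ← Set.range_comp]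
    simp only [Function.comp_def, hF]
    exact closure_star
  have hinjK : ∀ {x y : G}, x ∈ K → y ∈ K → ψ x = ψ y → x = y := by
    intro x y hx hy e
    have hsurj := ψ.subgroupMap_surjective K
    have hle : Nat.card K ≤ Nat.card (K.map ψ) := by
      rw [hKmap]
      have := card_closure_star (ι := ZMod p ⊕ Fin d)
      rw [closure_star, Fintype.card_sum, ZMod.card, Fintype.card_fin] at this
      omega
    have hbij : Function.Bijective (ψ.subgroupMap K) :=
      (Nat.bijective_iff_surjective_and_card _).mpr ⟨hsurj, le_antisymm hle (Nat.card_le_card_of_surjective _ hsurj)⟩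
    exact congrArg Subtype.val (hbij.1 (a₁ := ⟨x, hx⟩) (a₂ := ⟨y, hy⟩) (Subtype.ext e))
  have hKXK : KX p a (w ^ M) ≤ K := Rel0.KX_le
  obtain ⟨a', ha', ha'v⟩ : aT d ∈ (KX p a (w ^ M)).map ψ := by
    rw [KX, MonoidHom.map_closure, ← Set.range_comp, show ψ ∘ xg (p := p) a (w ^ M) =
      fun i => star (Sum.inl i : ZMod p ⊕ Fin d) from funext (R0.psi_xg hp)]
    exact evenify_liftP_mem shift
  have hYK : Y ∈ K := mul_mem (mul_mem R.r7 (hKXK hg)) (inv_mem R.r7)
  have hbK : b1 * Y ∈ K := mul_mem (hKXK hb1) hYK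
  set n := r.val
  have hban : b1 * Y * a * (b1 * Y)⁻¹ = a ^ n := by
    have := hA 1
    rwa [ZMod.val_one, pow_one, mul_one] at this
  have hbaa : b1 * Y * a' * (b1 * Y)⁻¹ = a' ^ n := by
    refine hinjK (mul_mem (mul_mem hbK (hKXK ha')) (inv_mem hbK)) (pow_mem (hKXK ha') _) ?_
    have := congrArg ψ hban
    rw [map_mul, map_mul, map_inv, map_pow, R0.ha] at this
    rw [map_mul, map_mul, map_inv, map_pow, ha'v, this]
  set δ := a'⁻¹ * a with hδdef
  set C := Subgroup.centralizer ({δ} : Set G)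
  have hmemC : ∀ {x : G}, Commute δ x → x ∈ C := fun h => Subgroup.mem_centralizer_singleton_iff.mpr h.eq.symm
  have hCmem : ∀ {x : G}, x ∈ C → Commute δ x := fun h => (Subgroup.mem_centralizer_singleton_iff.mp h).symm
  have hcomm : ∀ {x : G}, a * x * a⁻¹ = a' * x * a'⁻¹ → x ∈ C := by
    intro x hx
    refine hmemC ?_
    show a'⁻¹ * a * x = x * (a'⁻¹ * a)
    calc a'⁻¹ * a * x = a'⁻¹ * (a * x * a⁻¹) * a := by group
      _ = x * (a'⁻¹ * a) := by rw [hx]; group
  have hxC : KX p a (w ^ M) ≤ C := by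
    rw [KX, Subgroup.closure_le]
    rintro _ ⟨i, rfl⟩
    refine hcomm ?_
    have h1 := R0.conj_xg 1 i
    rw [pow_one] at h1
    rw [h1, R0.conj_of_mem hp ha' (by rw [ha'v]; rfl) i, sign_shift hp, Units.val_one, zpow_one]
    congr 1
    simp [shift, add_comm]
  have hac : Commute a' δ := (hCmem (hxC ha')).symm
  have haeq : a = a' * δ := by rw [hδdef, mul_inv_cancel_left]
  have hap' : a' ^ p = 1 := by
    refine hinjK (pow_mem (hKXK ha') _) (one_mem _) ?_
    rw [map_pow, ha'v, map_one, aT_pow_p]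
  have hδp : δ ^ p = 1 := by
    have := R0.a_pow_p
    rw [haeq, hac.mul_pow, hap', one_mul] at this
    exact this
  have hYδ : Y * δ * Y⁻¹ = δ ^ n := by
    have e1 : b1 * Y * δ * (b1 * Y)⁻¹ = δ ^ n := by
      calc b1 * Y * δ * (b1 * Y)⁻¹ = (b1 * Y * a' * (b1 * Y)⁻¹)⁻¹ * (b1 * Y * a * (b1 * Y)⁻¹) := by
            rw [hδdef]; group
        _ = δ ^ n := by rw [hbaa, hban, haeq, hac.mul_pow, inv_mul_cancel_left]
    have e2 : Commute b1 (δ ^ n) := (hCmem (hxC hb1)).symm.pow_right n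
    calc Y * δ * Y⁻¹ = b1⁻¹ * (b1 * Y * δ * (b1 * Y)⁻¹) * b1 := by group
      _ = δ ^ n := by rw [e1, mul_assoc, ← e2.eq, inv_mul_cancel_left]
  have hYC : ∀ {x : G}, x ∈ C → Y * x * Y⁻¹ ∈ C := by
    intro x hx
    have h1 : Commute (δ ^ n) (Y * x * Y⁻¹) := by
      rw [← hYδ]
      show Y * δ * Y⁻¹ * (Y * x * Y⁻¹) = Y * x * Y⁻¹ * (Y * δ * Y⁻¹)
      calc Y * δ * Y⁻¹ * (Y * x * Y⁻¹) = Y * (δ * x) * Y⁻¹ := by group
        _ = Y * x * Y⁻¹ * (Y * δ * Y⁻¹) := by rw [(hCmem hx).eq]; group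
    have h2 : δ = (δ ^ n) ^ r⁻¹.val := by
      rw [← pow_mul, pow_eq_pow_mod (n * r⁻¹.val) hδp, ← ZMod.val_mul, mul_inv_cancel₀ hr0, ZMod.val_one, pow_one]
    refine hmemC ?_
    rw [h2]
    exact h1.pow_left _
  have hXC : ∀ j, w ^ 9 * xg a (w ^ M) (D.emb j) * (w ^ 9)⁻¹ ∈ C := by
    refine hinduct (fun t => w ^ 9 * xg a (w ^ M) t * (w ^ 9)⁻¹ ∈ C) ?_ ?_
    · intro j hj
      refine hcomm ?_
      set X := w ^ 9 * xg a (w ^ M) (D.emb j) * (w ^ 9)⁻¹
      have hXK : X ∈ K := Subgroup.subset_closure ⟨Sum.inr j, rfl⟩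
      have h1 : a * X * a⁻¹ = X := by rw [(R.r4A j hj).eq, mul_inv_cancel_right]
      rw [h1]
      refine hinjK hXK (mul_mem (mul_mem (hKXK ha') hXK) (inv_mem (hKXK ha'))) ?_
      have := congrArg ψ h1
      rw [map_mul _ _ a⁻¹, map_mul _ a X, map_inv, R0.ha] at this
      rw [map_mul _ _ a'⁻¹, map_mul _ a' X, map_inv, ha'v, this]
    · intro v hv
      rw [hYX']
      exact zpow_mem (hYC hv) _
  have hKC : K ≤ C := by
    rw [hK, Subgroup.closure_le]
    rintro _ ⟨i | j, rfl⟩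
    · exact hxC (Rel0.xg_mem i)
    · exact hXC j
  have hδ : δ = 1 := by
    have h1 : δ ^ n = δ ^ 1 := by
      rw [pow_one, ← hYδ, ← (hCmem (hKC hYK)).eq, mul_inv_cancel_right]
    rcases (Nat.dvd_prime (Fact.out : p.Prime)).mp (orderOf_dvd_of_pow_eq_one hδp) with h | h
    · exact orderOf_eq_one_iff.mp h
    · exfalso
      rw [pow_eq_pow_iff_modEq, h] at h1
      have := (ZMod.natCast_eq_natCast_iff _ _ _).mpr h1
      rw [ZMod.natCast_zmod_val, Nat.cast_one] at this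
      exact hr1 this
  have htop : K = ⊤ := by
    rw [eq_top_iff, ← R0.gen, Subgroup.closure_le]
    rintro x (rfl | rfl)
    · rw [SetLike.mem_coe, haeq, hδ, mul_one]
      exact hKXK ha'
    · have := mul_mem R.r7 (pow_mem (hKXK (Rel0.z_mem (a := a) (w := x) (M := M) (p := p))) M)
      rw [← R0.w_eq hp] at this
      exact this
  rw [htop] at hfin hcard
  rw [Subgroup.card_top] at hcard
  exact ⟨Finite.of_equiv _ Subgroup.topEquiv.toEquiv, hcard⟩

end RelA

variable [Fact p.Prime]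

theorem gamma_fix (D : Data p d M) (i : ZMod p) :
    (D.y * liftP (d := d) (cyc D.SE) * D.y⁻¹ : Perm (ZMod p ⊕ Fin d)) (Sum.inl i) = Sum.inl i := by
  have hfix : liftP (d := d) (cyc D.SE) (D.y⁻¹ (Sum.inl i)) = D.y⁻¹ (Sum.inl i) := by
    cases h : D.y⁻¹ (Sum.inl i) with
    | inr j => rfl
    | inl t =>
      have hy : D.y (Sum.inl t) = Sum.inl i := by rw [← h]; simp
      rw [liftP_inl, cyc_of_notMem]
      simp only [Data.SE, Finset.mem_image, Finset.mem_univ, true_and, not_exists]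
      intro j e
      rw [← e, D.y_emb] at hy
      simp at hy
  rw [Perm.mul_apply, Perm.mul_apply, hfix]
  simp

theorem gamma_commute (D : Data p d M) (σ : Perm (ZMod p)) :
    Commute (D.y * liftP (cyc D.SE) * D.y⁻¹) (liftP σ) := by
  refine Perm.Disjoint.commute ?_
  rintro (i | j)
  · exact Or.inl (gamma_fix D i)
  · exact Or.inr rfl

theorem alt_block (hp : Odd p) (D : Data p d M) (hs : Perm.sign D.y = 1) :
    HasPres ↥(alternatingGroup (Bool ⊕ (ZMod p ⊕ Fin d))) 2 6 := by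
  obtain ⟨r, s, hr0, hrs, hgen⟩ := exists_primitive_root (p := p) hp
  have hr1 : r ≠ 1 := fun h => by rw [h, one_mul] at hrs; simp at hrs
  set μ : Perm (ZMod p) := Equiv.mulLeft₀ r hr0 with hμ
  obtain ⟨γ, hγ⟩ : ∃ γ : Perm (ZMod p ⊕ Fin d), γ = D.y * liftP (cyc D.SE) * D.y⁻¹ := ⟨_, rfl⟩
  obtain ⟨b, hb, hbv⟩ := word hp D (evenify_liftP_mem μ)
  obtain ⟨g, hg, hgv⟩ := word hp D (evenify_liftP_mem (cyc D.SE))
  set B := b * (lw ^ 9 * g * (lw ^ 9)⁻¹) with hBdef
  have hBv : tau D B = evenify (liftP μ * γ) := by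
    rw [hBdef, map_mul, map_mul, map_mul, map_inv, map_pow, tau_one, D.wT_pow_nine, hbv, hgv, liftI_conj_evenify,
      ← hγ, ← map_mul]
  set e : ℤ := ((Perm.sign μ : ℤˣ) : ℤ) * ((Perm.sign (cyc D.SE) : ℤˣ) : ℤ) with he
  have hy : liftI D.y ∈ Subgroup.closure ((tau D) '' Set.range (FW D)) := by
    rw [← Set.range_comp, show tau D ∘ FW D = star from funext (tau_FW hp D), closure_star]
    show Perm.sign (liftI D.y) = 1
    rw [sign_liftI, hs]
  obtain ⟨W, hW, hWv⟩ := exists_word (tau D) hy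
  obtain ⟨X0, hX0, hX0v⟩ : ∃ X0 : FreeGroup (Fin 2), (∀ j : Fin d, j.val = 0 → X0 = FW D (Sum.inr j)) ∧
      Commute (aT d) (tau D X0) := by
    by_cases h : 0 < d
    · refine ⟨FW D (Sum.inr ⟨0, h⟩), fun j hj => by rw [show j = ⟨0, h⟩ from Fin.ext hj], ?_⟩
      rw [tau_FW hp D, aT]
      have := conj_evenify (liftP (d := d) (shift (p := p))) (Sum.inr ⟨0, h⟩)
      rw [sign_liftP, sign_shift hp, Units.val_one, zpow_one, liftP_inr, mul_inv_eq_iff_eq_mul] at this
      exact this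
    · exact ⟨1, fun j => absurd j.pos h, by rw [map_one]; exact Commute.one_right _⟩
  refine hasPres_of_list (tau D) [la ^ p * (lw ^ (3 * M))⁻¹,
    B * la ^ ((r * s).val + 1) * B⁻¹ * (la ^ (r * s).val)⁻¹,
    B * lw ^ M * B⁻¹ * ((lw ^ M) ^ e)⁻¹,
    (lw ^ M * (la * lw ^ M * la⁻¹)) ^ 2,
    la * X0 * (X0 * la)⁻¹,
    lw ^ 9 * W⁻¹] le_rfl ?_ _ ?_ ?_
  · intro l hl
    simp only [List.mem_cons, List.not_mem_nil, or_false] at hl
    rcases hl with rfl | rfl | rfl | rfl | rfl | rfl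
    · rw [map_mul, map_inv, map_pow, map_pow, tau_zero, tau_one, aT_pow_p, D.wT_pow_three_M, inv_one, one_mul]
    · simp only [map_mul, map_inv, map_pow, tau_zero, hBv]
      have key : liftP (d := d) μ * γ * liftP (shift ^ ((r * s).val + 1)) * (liftP μ * γ)⁻¹ =
          liftP (shift ^ (r * s).val) := by
        have hc : ∀ σ, γ * liftP σ = liftP σ * γ := fun σ => by rw [hγ]; exact (gamma_commute D σ).eq
        rw [mul_inv_eq_iff_eq_mul, mul_assoc _ γ, hc, ← mul_assoc, ← mul_assoc, ← map_mul, ← map_mul]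
        congr 2
        ext t
        rw [Perm.mul_apply, Perm.mul_apply, shift_pow_apply, shift_pow_apply]
        show r * (t + ((((r * s).val + 1 : ℕ)) : ZMod p)) = r * t + (((r * s).val : ℕ) : ZMod p)
        rw [Nat.cast_add, Nat.cast_one, ZMod.natCast_zmod_val, hrs, mul_add]
      rw [mul_inv_eq_one, ← map_mul evenify, aT, ← map_pow, ← map_pow, ← map_pow, ← map_pow, ← map_inv,
        ← map_mul, ← map_mul, key]
    · simp only [map_mul, map_inv, map_pow, map_zpow, tau_one, D.wT_pow_M, hBv]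
      rw [mul_inv_eq_one, ← map_mul evenify, conj_evenify, Perm.mul_apply, hγ, gamma_fix, liftP_inl, map_mul,
        Units.val_mul, sign_liftP, he]
      congr 3
      · show r * 0 = 0
        rw [mul_zero]
      · rw [map_mul, map_mul, map_inv, mul_comm, ← mul_assoc, inv_mul_cancel, one_mul, sign_liftP]
    · simp only [map_mul, map_inv, map_pow, tau_zero, tau_one, D.wT_pow_M]
      have := aT_pow_conj (p := p) (d := d) hp 1 0
      rw [pow_one] at this
      rw [this]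
      exact star_pair (by simp)
    · simp only [map_mul, map_inv, tau_zero]
      rw [hX0v.eq, mul_inv_cancel]
    · simp only [map_mul, map_inv, map_pow, tau_one, D.wT_pow_nine, hWv, mul_inv_cancel]
  · refine le_antisymm ?_ (alt_le_range hp D)
    rw [tau, FreeGroup.range_lift_eq_closure, Subgroup.closure_le]
    rintro _ ⟨i, rfl⟩
    fin_cases i
    · exact sign_evenify _
    · exact (sign_wT D).trans hs
  · intro G _ φ ψ hsurj hkill hψ
    simp only [List.mem_cons, List.not_mem_nil, or_false, forall_eq_or_imp, forall_eq] at hkill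
    obtain ⟨k1, k2, k3, k4, k5, k6⟩ := hkill
    simp only [B, map_mul, map_inv, map_pow, map_zpow, mul_inv_eq_one] at k1 k2 k3 k4 k5 k6
    have hψ' : ∀ x, ψ (φ x) = tau D x := fun x => DFunLike.congr_fun hψ x
    have hmem : ∀ {x}, x ∈ KX p la (lw ^ M) → φ x ∈ KX p (φ la) (φ lw ^ M) := fun hx => by
      have := map_KX φ _ _ hx
      rwa [map_pow] at this
    have hgenG : Subgroup.closure {φ la, φ lw} = ⊤ := by
      have := MonoidHom.map_closure φ (Set.range (FreeGroup.of : Fin 2 → FreeGroup (Fin 2)))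
      rw [FreeGroup.closure_range_of, Subgroup.map_top_of_surjective φ hsurj, ← Set.range_comp] at this
      rw [this]
      congr 1
      ext x
      simp [Fin.exists_fin_two, eq_comm]
    have hFmap : ∀ i, φ (FW D i) = Rel0.F D (φ la) (φ lw) i := by
      rintro (i | j) <;> simp [Rel0.F, FW, map_xg]
    have R : RelA D ψ (φ la) (φ lw) :=
      { gen := hgenG
        ha := by rw [hψ', tau_zero]
        hw := by rw [hψ', tau_one]
        r1 := k1
        r2 := ⟨_, r, s, hgen, hrs, k2, e, by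
          rw [he]
          rcases Rel0.sign_cases μ with h | h <;> rcases Rel0.sign_cases (cyc D.SE) with h' | h' <;>
            simp [h, h'], k3⟩
        r5 := k4
        r2A := ⟨φ b, hmem hb, φ g, hmem hg, r, s, μ, by rw [hψ', hbv], fun i => rfl, hr0, hr1,
          by rw [hψ', hgv], hrs, k2, k3⟩
        r4A := fun j hj => by
          rw [hX0 j hj] at k5
          have := hFmap (Sum.inr j)
          rw [this] at k5
          exact k5
        r7 := by
          rw [k6]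
          have := Subgroup.mem_map_of_mem φ hW
          rw [MonoidHom.map_closure, ← Set.range_comp] at this
          simpa only [Function.comp_def, hFmap] using this }
    obtain ⟨h1, h2⟩ := R.alt_bound hp
    refine ⟨h1, ?_⟩
    have := card_closure_star (ι := ZMod p ⊕ Fin d)
    rw [closure_star, Fintype.card_sum, ZMod.card, Fintype.card_fin] at this
    omega

end CfsgLib.ShortPres
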