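/-
Existence of the block data.
-/
import Cfsg.Agent.Lib.ShortPres.Model

set_option autoImplicit false

namespace CfsgLib.ShortPres

open Equiv

variable {p d : ℕ}

/-- The exchanged points. -/
def embPt (j : Fin d) : ZMod p := ((j.val + 1 : ℕ) : ZMod p)

theorem cast_inj_lt {a b : ℕ} (ha : a < p) (hb : b < p) (h : (a : ZMod p) = b) : a = b := by
  have := congrArg ZMod.val h
  rwa [ZMod.val_natCast, ZMod.val_natCast, Nat.mod_eq_of_lt ha, Nat.mod_eq_of_lt hb] at this

theorem embPt_inj (hd : d + 2 ≤ p) {i j : Fin d} (h : (embPt i : ZMod p) = embPt j) : i = j :=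
  Fin.ext (Nat.succ_injective (cast_inj_lt (by omega) (by omega) h))

theorem embPt_ne_cast (hd : d + 2 ≤ p) (j : Fin d) {a : ℕ} (ha : a < p) (h : a = 0 ∨ d < a) :
    (embPt j : ZMod p) ≠ (a : ZMod p) := fun e => by
  have := cast_inj_lt (by omega) ha e
  omega

variable (p d) in
/-- The first `k` exchanges. -/
def swaps : ℕ → Perm (ZMod p ⊕ Fin d)
  | 0 => 1
  | k + 1 => if h : k < d then Equiv.swap (Sum.inl (embPt ⟨k, h⟩)) (Sum.inr ⟨k, h⟩) * swaps k else swaps k

theorem swaps_inl_of_ne {t : ZMod p} (ht : ∀ j : Fin d, embPt j ≠ t) :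
    ∀ k, swaps p d k (Sum.inl t) = Sum.inl t
  | 0 => rfl
  | k + 1 => by
    rw [swaps]
    split
    · rw [Perm.mul_apply, swaps_inl_of_ne ht k, Equiv.swap_apply_of_ne_of_ne (by simpa using (ht _).symm) (by simp)]
    · exact swaps_inl_of_ne ht k

theorem swaps_emb (hd : d + 2 ≤ p) (j : Fin d) : ∀ k,
    swaps p d k (Sum.inl (embPt j)) = if j.val < k then Sum.inr j else Sum.inl (embPt j)
  | 0 => by simp [swaps]
  | k + 1 => by
    rw [swaps]
    split
    · next h =>
      rw [Perm.mul_apply, swaps_emb hd j k]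
      by_cases h1 : j.val < k
      · rw [if_pos h1, if_pos (by omega), Equiv.swap_apply_of_ne_of_ne (by simp) (by
          simp only [ne_eq, Sum.inr.injEq]; intro e; have := congrArg Fin.val e; simp at this; omega)]
      · rw [if_neg h1]
        by_cases h2 : j.val = k
        · have e : j = ⟨k, h⟩ := Fin.ext h2
          rw [if_pos (by omega), ← e, Equiv.swap_apply_left]
        · rw [if_neg (by omega), Equiv.swap_apply_of_ne_of_ne (by
            simp only [ne_eq, Sum.inl.injEq]; intro e; exact h2 (congrArg Fin.val (embPt_inj hd e))) (by simp)]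
    · next h =>
      rw [swaps_emb hd j k, if_pos (by omega), if_pos (by omega)]

theorem swaps_inr (hd : d + 2 ≤ p) (j : Fin d) : ∀ k,
    swaps p d k (Sum.inr j) = if j.val < k then Sum.inl (embPt j) else Sum.inr j
  | 0 => by simp [swaps]
  | k + 1 => by
    rw [swaps]
    split
    · next h =>
      rw [Perm.mul_apply, swaps_inr hd j k]
      by_cases h1 : j.val < k
      · rw [if_pos h1, if_pos (by omega), Equiv.swap_apply_of_ne_of_ne (by
          simp only [ne_eq, Sum.inl.injEq]; intro e; have := congrArg Fin.val (embPt_inj hd e); simp at this; omega)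
          (by simp)]
      · rw [if_neg h1]
        by_cases h2 : j.val = k
        · have e : j = ⟨k, h⟩ := Fin.ext h2
          rw [if_pos (by omega), ← e, Equiv.swap_apply_right]
        · rw [if_neg (by omega), Equiv.swap_apply_of_ne_of_ne (by simp) (by
            simp only [ne_eq, Sum.inr.injEq]; intro e; exact h2 (congrArg Fin.val e))]
    · next h =>
      rw [swaps_inr hd j k, if_pos (by omega), if_pos (by omega)]

theorem sign_swaps [NeZero p] : ∀ k, k ≤ d → Perm.sign (swaps p d k) = (-1) ^ k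
  | 0, _ => by simp [swaps]
  | k + 1, hk => by
    rw [swaps, dif_pos (by omega), map_mul, Perm.sign_swap (by simp), sign_swaps k (by omega), pow_succ']

variable (p d) in
/-- All exchanges. -/
def exch : Perm (ZMod p ⊕ Fin d) := swaps p d d

theorem exch_emb (hd : d + 2 ≤ p) (j : Fin d) : exch p d (Sum.inl (embPt j)) = Sum.inr j := by
  rw [exch, swaps_emb hd, if_pos j.isLt]

theorem exch_inr (hd : d + 2 ≤ p) (j : Fin d) : exch p d (Sum.inr j) = Sum.inl (embPt j) := by
  rw [exch, swaps_inr hd, if_pos j.isLt]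

theorem exch_fix {t : ZMod p} (ht : ∀ j : Fin d, embPt j ≠ t) : exch p d (Sum.inl t) = Sum.inl t :=
  swaps_inl_of_ne ht d

theorem exch_sq (hd : d + 2 ≤ p) : exch p d * exch p d = 1 := by
  ext x : 1
  rcases x with t | j
  · by_cases h : ∃ j : Fin d, embPt j = t
    · obtain ⟨j, rfl⟩ := h
      rw [Perm.mul_apply, exch_emb hd, exch_inr hd]; rfl
    · push Not at h
      rw [Perm.mul_apply, exch_fix h, exch_fix h]; rfl
  · rw [Perm.mul_apply, exch_inr hd, exch_emb hd]; rfl

variable [NeZero p]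

/-- Data from a permutation agreeing with the exchanges. -/
def mkData {M : ℕ} (hd : d + 2 ≤ p) (y : Perm (ZMod p ⊕ Fin d))
    (h0 : y (Sum.inl 0) = Sum.inl 0) (he : ∀ j : Fin d, y (Sum.inl (embPt j)) = Sum.inr j)
    (hC : ∀ t : ZMod p, (∀ j : Fin d, embPt j ≠ t) → ∃ t', y (Sum.inl t) = Sum.inl t')
    (hy : y ^ M = 1) (hM : M = 2 ∨ M = 4) : Data p d M where
  emb := embPt
  c0 := ((p - 1 : ℕ) : ZMod p)
  y := y
  emb_ne j := by simpa using embPt_ne_cast hd j (a := 0) (by omega) (Or.inl rfl)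
  c0_ne h := by
    have := cast_inj_lt (p := p) (a := p - 1) (b := 0) (by omega) (by omega) (by simpa using h)
    omega
  c0_emb j := embPt_ne_cast hd j (by omega) (Or.inr (by omega))
  y_zero := h0
  y_emb := he
  y_C t _ ht := hC t ht
  y_pow := hy
  hM := hM

theorem embPt_ne_zero (hd : d + 2 ≤ p) (j : Fin d) : (embPt j : ZMod p) ≠ 0 := by
  simpa using embPt_ne_cast hd j (a := 0) (by omega) (Or.inl rfl)

theorem exists_exch_data (hd : d + 2 ≤ p) {M : ℕ} (hM : M = 2 ∨ M = 4) :
    ∃ D : Data p d M, Perm.sign D.y = (-1) ^ d := by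
  have h2 : exch p d ^ M = 1 := by
    have h : exch p d ^ 2 = 1 := by rw [pow_two, exch_sq hd]
    rcases hM with rfl | rfl
    · exact h
    · rw [show 4 = 2 * 2 from rfl, pow_mul, h, one_pow]
  exact ⟨mkData hd (exch p d) (exch_fix (embPt_ne_zero hd)) (exch_emb hd) (fun t ht => ⟨t, exch_fix ht⟩) h2 hM,
    sign_swaps d le_rfl⟩

theorem exists_exch_swap_data (hd : d + 3 ≤ p) {M : ℕ} (hM : M = 2 ∨ M = 4) :
    ∃ D : Data p d M, Perm.sign D.y = -(-1) ^ d := by
  have hd' : d + 2 ≤ p := by omega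
  set c1 : ZMod p := ((p - 1 : ℕ) : ZMod p)
  set c2 : ZMod p := ((d + 1 : ℕ) : ZMod p)
  have hc12 : c1 ≠ c2 := fun h => by
    have := cast_inj_lt (by omega) (by omega) h
    omega
  have hc1 : ∀ j : Fin d, embPt j ≠ c1 := fun j => embPt_ne_cast hd' j (by omega) (Or.inr (by omega))
  have hc2 : ∀ j : Fin d, embPt j ≠ c2 := fun j => embPt_ne_cast hd' j (by omega) (Or.inr (by omega))
  set s : Perm (ZMod p ⊕ Fin d) := Equiv.swap (Sum.inl c1) (Sum.inl c2) with hs
  have hy : exch p d * s * (exch p d * s) = 1 := by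
    have hconj : exch p d * s * (exch p d)⁻¹ = s := by
      rw [hs, ← Equiv.swap_apply_apply, exch_fix hc1, exch_fix hc2]
    rw [show exch p d * s * (exch p d * s) = (exch p d * s * (exch p d)⁻¹) * ((exch p d * exch p d) * s) by group,
      hconj, exch_sq hd', one_mul, hs, Equiv.swap_mul_self]
  refine ⟨mkData hd' (exch p d * s) ?_ ?_ ?_ ?_ hM, ?_⟩
  · rw [Perm.mul_apply, hs, Equiv.swap_apply_of_ne_of_ne, exch_fix (embPt_ne_zero hd')]
    · simp only [ne_eq, Sum.inl.injEq]
      intro h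
      have := cast_inj_lt (p := p) (a := 0) (b := p - 1) (by omega) (by omega) (by simpa using h)
      omega
    · simp only [ne_eq, Sum.inl.injEq]
      intro h
      have := cast_inj_lt (p := p) (a := 0) (b := d + 1) (by omega) (by omega) (by rw [Nat.cast_zero]; exact h)
      omega
  · intro j
    rw [Perm.mul_apply, hs, Equiv.swap_apply_of_ne_of_ne (by simpa using hc1 j) (by simpa using hc2 j),
      exch_emb hd']
  · intro t ht
    rw [Perm.mul_apply, hs, Equiv.swap_apply_def]
    split_ifs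
    · exact ⟨c2, exch_fix hc2⟩
    · exact ⟨c1, exch_fix hc1⟩
    · exact ⟨t, exch_fix ht⟩
  · rcases hM with rfl | rfl
    · rw [pow_two, hy]
    · rw [show 4 = 2 * 2 from rfl, pow_mul, show (exch p d * s) ^ 2 = 1 by rw [pow_two, hy], one_pow]
  · show Perm.sign (exch p d * s) = _
    rw [map_mul, hs, Perm.sign_swap (by simpa using hc12), exch, sign_swaps d le_rfl, mul_neg, mul_one]

theorem exists_four_data (hd : d + 2 ≤ p) (h2 : 2 ≤ d) :
    ∃ D : Data p d 4, Perm.sign D.y = -(-1) ^ d := by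
  set i0 : Fin d := ⟨0, by omega⟩
  set i1 : Fin d := ⟨1, by omega⟩
  have hi : i0 ≠ i1 := fun h => by simpa [i0, i1] using congrArg Fin.val h
  set s : Perm (ZMod p ⊕ Fin d) := Equiv.swap (Sum.inr i0) (Sum.inr i1) with hs
  set t : Perm (ZMod p ⊕ Fin d) := Equiv.swap (Sum.inl (embPt i0)) (Sum.inl (embPt i1)) with ht
  have hsq : (exch p d * s) ^ 2 = t * s := by
    have hconj : exch p d * s * (exch p d)⁻¹ = t := by
      rw [hs, ← Equiv.swap_apply_apply, exch_inr hd, exch_inr hd]
    rw [pow_two, show exch p d * s * (exch p d * s) = (exch p d * s * (exch p d)⁻¹) * ((exch p d * exch p d) * s) by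
      group, hconj, exch_sq hd, one_mul]
  have hts : Commute t s := by
    refine Perm.Disjoint.commute ?_
    rintro (x | x)
    · exact Or.inr (by rw [hs]; exact Equiv.swap_apply_of_ne_of_ne (by simp) (by simp))
    · exact Or.inl (by rw [ht]; exact Equiv.swap_apply_of_ne_of_ne (by simp) (by simp))
  refine ⟨mkData hd (exch p d * s) ?_ ?_ ?_ ?_ (Or.inr rfl), ?_⟩
  · rw [Perm.mul_apply, hs, Equiv.swap_apply_of_ne_of_ne (by simp) (by simp), exch_fix (embPt_ne_zero hd)]
  · intro j
    rw [Perm.mul_apply, hs, Equiv.swap_apply_of_ne_of_ne (by simp) (by simp), exch_emb hd]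
  · intro u hu
    exact ⟨u, by rw [Perm.mul_apply, hs, Equiv.swap_apply_of_ne_of_ne (by simp) (by simp), exch_fix hu]⟩
  · rw [show 4 = 2 * 2 from rfl, pow_mul, hsq, hts.mul_pow, ht, hs, pow_two, pow_two, Equiv.swap_mul_self,
      Equiv.swap_mul_self, one_mul]
  · show Perm.sign (exch p d * s) = _
    rw [map_mul, hs, Perm.sign_swap (by simpa using hi), exch, sign_swaps d le_rfl, mul_neg, mul_one]

theorem exists_alt_data (hd : d + 2 ≤ p) (h : d + 3 ≤ p ∨ 2 ≤ d ∨ Even d) :
    ∃ D : Data p d 4, Perm.sign D.y = 1 := by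
  rcases Nat.even_or_odd d with he | ho
  · obtain ⟨D, hD⟩ := exists_exch_data hd (M := 4) (Or.inr rfl)
    exact ⟨D, by rw [hD, he.neg_one_pow]⟩
  rcases h with h | h | h
  · obtain ⟨D, hD⟩ := exists_exch_swap_data h (M := 4) (Or.inr rfl)
    exact ⟨D, by rw [hD, ho.neg_one_pow, neg_neg]⟩
  · obtain ⟨D, hD⟩ := exists_four_data hd h
    exact ⟨D, by rw [hD, ho.neg_one_pow, neg_neg]⟩
  · exact absurd h (Nat.not_even_iff_odd.mpr ho)

theorem exists_sym_data (hd : d + 2 ≤ p) (hp : Odd p) :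
    ∃ D : Data p d 2, Perm.sign D.y = -1 := by
  rcases Nat.even_or_odd d with he | ho
  · have h3 : d + 3 ≤ p := by
      rcases hp with ⟨a, rfl⟩; rcases he with ⟨b, rfl⟩; omega
    obtain ⟨D, hD⟩ := exists_exch_swap_data h3 (M := 2) (Or.inl rfl)
    exact ⟨D, by rw [hD, he.neg_one_pow]⟩
  · obtain ⟨D, hD⟩ := exists_exch_data hd (M := 2) (Or.inl rfl)
    exact ⟨D, by rw [hD, ho.neg_one_pow]⟩

end CfsgLib.ShortPres
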