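/-
A presentation may be given one more generator at the cost of one relation.
-/
import Cfsg.Agent.Lib.ShortPres.Pres

set_option autoImplicit false

namespace CfsgLib.ShortPres

theorem HasPres.succ {Γ : Type} [Group Γ] {k r : ℕ} (h : HasPres Γ k r) : HasPres Γ (k + 1) (r + 1) := by
  classical
  obtain ⟨rels, hcard, ⟨e⟩⟩ := h
  set σ : FreeGroup (Fin k) →* FreeGroup (Fin (k + 1)) := FreeGroup.map Fin.castSucc with hσ
  obtain ⟨R', hR'⟩ : ∃ R' : Finset (FreeGroup (Fin (k + 1))),
      R' = insert (FreeGroup.of (Fin.last k)) (rels.image σ) := ⟨_, rfl⟩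
  refine ⟨R', ?_, ?_⟩
  · rw [hR']
    exact (Finset.card_insert_le _ _).trans (Nat.succ_le_succ (Finset.card_image_le.trans hcard))
  let f : Fin (k + 1) → PresentedGroup (↑rels : Set (FreeGroup (Fin k))) :=
    Fin.snoc (fun i => PresentedGroup.of i) 1
  have hfσ : (FreeGroup.lift f).comp σ = PresentedGroup.mk (↑rels : Set (FreeGroup (Fin k))) := by
    refine FreeGroup.ext_hom _ _ fun i => ?_
    rw [MonoidHom.comp_apply, hσ, FreeGroup.map.of, FreeGroup.lift_apply_of]
    simp only [f, Fin.snoc_castSucc]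
    rfl
  have hF : ∀ l ∈ (↑R' : Set (FreeGroup (Fin (k + 1)))), FreeGroup.lift f l = 1 := by
    intro l hl
    rw [hR', Finset.mem_coe, Finset.mem_insert, Finset.mem_image] at hl
    rcases hl with rfl | ⟨l, hl, rfl⟩
    · rw [FreeGroup.lift_apply_of]
      simp only [f, Fin.snoc_last]
    · have := DFunLike.congr_fun hfσ l
      rw [MonoidHom.comp_apply] at this
      rw [this]
      exact PresentedGroup.one_of_mem hl
  have hH : ∀ l ∈ (↑rels : Set (FreeGroup (Fin k))),
      FreeGroup.lift (fun i => PresentedGroup.of (rels := (↑R' : Set (FreeGroup (Fin (k + 1))))) i.castSucc) l = 1 := by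
    intro l hl
    have : FreeGroup.lift (fun i => PresentedGroup.of (rels := (↑R' : Set (FreeGroup (Fin (k + 1))))) i.castSucc) =
        (PresentedGroup.mk (↑R' : Set (FreeGroup (Fin (k + 1))))).comp σ := by
      refine FreeGroup.ext_hom _ _ fun i => ?_
      rw [MonoidHom.comp_apply, hσ, FreeGroup.map.of, FreeGroup.lift_apply_of]
      rfl
    rw [this, MonoidHom.comp_apply]
    exact PresentedGroup.one_of_mem (by
      rw [hR', Finset.mem_coe, Finset.mem_insert, Finset.mem_image]
      exact Or.inr ⟨l, hl, rfl⟩)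
  refine ⟨((PresentedGroup.toGroup hF).toMulEquiv (PresentedGroup.toGroup hH) ?_ ?_).trans e⟩
  · refine PresentedGroup.ext fun j => ?_
    rw [MonoidHom.comp_apply, PresentedGroup.toGroup.of, MonoidHom.id_apply]
    rcases Fin.eq_castSucc_or_eq_last j with ⟨i, rfl⟩ | rfl
    · simp only [f, Fin.snoc_castSucc, PresentedGroup.toGroup.of]
    · simp only [f, Fin.snoc_last, map_one]
      exact (PresentedGroup.one_of_mem (by rw [hR', Finset.mem_coe]; exact Finset.mem_insert_self _ _)).symm
  · refine PresentedGroup.ext fun i => ?_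
    rw [MonoidHom.comp_apply, PresentedGroup.toGroup.of, MonoidHom.id_apply, PresentedGroup.toGroup.of]
    simp only [f, Fin.snoc_castSucc]

end CfsgLib.ShortPres
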