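/-
Symmetric and alternating groups have two-generator presentations with six relations.
-/
import Cfsg.Agent.Lib.ShortPres.AltBlock
import Cfsg.Agent.Lib.ShortPres.Extend
import Cfsg.Agent.Lib.ShortPres.DataExists

set_option autoImplicit false

namespace CfsgLib.ShortPres

open Equiv

theorem alt_iso {α : Type} [Fintype α] [DecidableEq α] {n : ℕ} (hn : Fintype.card α = n) :
    Nonempty (↥(alternatingGroup α) ≃* ↥(alternatingGroup (Fin n))) :=
  ⟨(Fintype.equivFinOfCardEq hn).altCongrHom⟩

theorem perm_iso {α : Type} [Fintype α] {n : ℕ} (hn : Fintype.card α = n) :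
    Nonempty (Perm α ≃* Perm (Fin n)) :=
  ⟨(Fintype.equivFinOfCardEq hn).permCongrHom⟩

theorem pres_one {Γ : Type} [Group Γ] [Subsingleton Γ] : HasPres Γ 2 2 := by
  refine (hasPres_of_list (1 : FreeGroup (Fin 2) →* Γ) [FreeGroup.of 0, FreeGroup.of 1] le_rfl
    (fun l _ => rfl) ⊤ (Subsingleton.elim _ _) ?_).congr Subgroup.topEquiv
  intro G _ φ ψ hsurj hkill _
  have : φ = 1 := FreeGroup.ext_hom _ _ fun i => by fin_cases i <;> simp [hkill]
  subst this
  haveI : Subsingleton G := ⟨fun a b => by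
    obtain ⟨_, rfl⟩ := hsurj a; obtain ⟨_, rfl⟩ := hsurj b; rfl⟩
  refine ⟨inferInstance, ?_⟩
  rw [Nat.card_of_subsingleton (1 : G)]
  exact Nat.card_pos

theorem closure_two {G : Type} [Group G] (φ : FreeGroup (Fin 2) →* G) (h : Function.Surjective φ) :
    Subgroup.closure {φ (FreeGroup.of 0), φ (FreeGroup.of 1)} = ⊤ := by
  have := MonoidHom.map_closure φ (Set.range (FreeGroup.of : Fin 2 → FreeGroup (Fin 2)))
  rw [FreeGroup.closure_range_of, Subgroup.map_top_of_surjective φ h, ← Set.range_comp] at this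
  rw [this]
  congr 1
  ext g
  simp [Fin.exists_fin_two, eq_comm]

theorem bound_of_family {G : Type} [Group G] {z t : G} (hgen : Subgroup.closure {z, t} = ⊤) {m : ℕ}
    {x : Fin m → G} (h3 : ∀ i, x i ^ 3 = 1) (h2 : ∀ i j, i ≠ j → (x i * x j) ^ 2 = 1)
    (hz : z ∈ Subgroup.closure (Set.range x)) (ht : t ∈ Subgroup.closure (Set.range x)) :
    Finite G ∧ 2 * Nat.card G ≤ (m + 2).factorial := by
  have htop : Subgroup.closure (Set.range x) = ⊤ := by
    rw [eq_top_iff, ← hgen, Subgroup.closure_le]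
    rintro g (rfl | rfl)
    · exact hz
    · exact ht
  obtain ⟨h, h'⟩ := carmichael h3 h2
  rw [htop] at h h'
  rw [Subgroup.card_top, Fintype.card_fin] at h'
  exact ⟨Finite.of_equiv _ Subgroup.topEquiv.toEquiv, h'⟩

theorem bound_of_involution {G : Type} [Group G] {z t : G} (hgen : Subgroup.closure {z, t} = ⊤) {m : ℕ}
    {x : Fin m → G} (h3 : ∀ i, x i ^ 3 = 1) (h2 : ∀ i j, i ≠ j → (x i * x j) ^ 2 = 1)
    (hz : z ∈ Subgroup.closure (Set.range x)) (ht : t * t = 1)
    (hconj : ∀ i, t * x i * t ∈ Subgroup.closure (Set.range x)) :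
    Finite G ∧ Nat.card G ≤ (m + 2).factorial := by
  set K := Subgroup.closure (Set.range x) with hK
  obtain ⟨hfin, hcard⟩ := carmichael h3 h2
  rw [Fintype.card_fin, ← hK] at hcard
  have hti : t⁻¹ = t := inv_eq_of_mul_eq_one_right ht
  have htK : ∀ g ∈ K, t * g * t ∈ K := by
    have : K ≤ K.comap (MulAut.conj t).toMonoidHom := by
      conv_lhs => rw [hK]
      rw [Subgroup.closure_le]
      rintro _ ⟨i, rfl⟩
      show t * x i * t⁻¹ ∈ K
      rw [hti]; exact hconj i
    intro g hg
    have h := this hg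
    have h' : t * g * t⁻¹ ∈ K := h
    rwa [hti] at h'
  set S : Set G := (K : Set G) ∪ (fun g => t * g) '' (K : Set G)
  have hKS : ∀ k ∈ K, ∀ g ∈ S, k * g ∈ S := by
    rintro k hk g (hg | ⟨g, hg, rfl⟩)
    · exact Or.inl (mul_mem hk hg)
    · refine Or.inr ⟨t * k * t * g, mul_mem (htK k hk) hg, ?_⟩
      show t * (t * k * t * g) = k * (t * g)
      rw [show t * (t * k * t * g) = (t * t) * k * (t * g) by group, ht, one_mul]
  have htS : ∀ g ∈ S, t * g ∈ S := by
    rintro g (hg | ⟨g, hg, rfl⟩)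
    · exact Or.inr ⟨g, hg, rfl⟩
    · exact Or.inl (by rw [← mul_assoc, ht, one_mul]; exact hg)
  have hsub : (Set.univ : Set G) ⊆ S := by
    have : (Subgroup.closure {z, t} : Set G) ⊆ S := by
      refine closure_subset_of_mul_stable (Or.inl (one_mem K)) ?_ ?_
      · rintro u (rfl | rfl) g hg
        · exact hKS _ hz g hg
        · exact htS g hg
      · rintro u (rfl | rfl) g hg
        · exact hKS _ (inv_mem hz) g hg
        · rw [hti]; exact htS g hg
    intro g _
    exact this (by rw [hgen]; exact Set.mem_univ g)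
  have hKf : (K : Set G).Finite := Set.toFinite _
  have hSf : S.Finite := hKf.union (hKf.image _)
  haveI : Finite G := Set.finite_univ_iff.mp (hSf.subset hsub)
  refine ⟨inferInstance, ?_⟩
  have h1 : Nat.card G ≤ S.ncard := by rw [← Set.ncard_univ]; exact Set.ncard_le_ncard hsub hSf
  have h4 : S.ncard ≤ Nat.card K + Nat.card K := by
    refine (Set.ncard_union_le _ _).trans (Nat.add_le_add ?_ ?_)
    · rw [← Nat.card_coe_set_eq]; rfl
    · refine (Set.ncard_image_le hKf).trans ?_
      rw [← Nat.card_coe_set_eq]; rfl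
  omega

theorem card_top_perm (α : Type) [Fintype α] {n : ℕ} (hn : Fintype.card α = n) :
    Nat.card (⊤ : Subgroup (Perm α)) = n.factorial := by
  classical
  rw [Subgroup.card_top, Nat.card_eq_fintype_card, Fintype.card_perm, hn]

theorem range_top {ι : Type} [Fintype ι] [DecidableEq ι] (τ : FreeGroup (Fin 2) →* Perm (Bool ⊕ ι))
    (h : ∀ i, star i ∈ τ.range) (g₀ : Perm (Bool ⊕ ι)) (hg : g₀ ∈ τ.range)
    (hs : Perm.sign g₀ = -1) : τ.range = ⊤ := by
  rw [eq_top_iff]
  intro g _
  have halt : alternatingGroup (Bool ⊕ ι) ≤ τ.range := by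
    rw [← closure_star, Subgroup.closure_le]
    rintro _ ⟨i, rfl⟩
    exact h i
  rcases Int.units_eq_one_or (Perm.sign g) with h' | h'
  · exact halt h'
  · have h1 : g * g₀ ∈ alternatingGroup _ := by
      show Perm.sign (g * g₀) = 1
      rw [map_mul, h', hs]; rfl
    have h2 := mul_mem (halt h1) (inv_mem hg)
    rwa [mul_inv_cancel_right] at h2

theorem range_alt {ι : Type} [Fintype ι] [DecidableEq ι] (f : Fin 2 → Perm (Bool ⊕ ι))
    (h : ∀ i, star i ∈ (FreeGroup.lift f).range) (hs : ∀ i, Perm.sign (f i) = 1) :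
    (FreeGroup.lift f).range = alternatingGroup (Bool ⊕ ι) := by
  refine le_antisymm ?_ ?_
  · rw [FreeGroup.range_lift_eq_closure, Subgroup.closure_le]
    rintro _ ⟨i, rfl⟩
    exact hs i
  · rw [← closure_star, Subgroup.closure_le]
    rintro _ ⟨i, rfl⟩
    exact h i

theorem card_alt_star (ι : Type) [Fintype ι] [DecidableEq ι] {n : ℕ} (hn : Fintype.card ι = n) :
    2 * Nat.card ↥(alternatingGroup (Bool ⊕ ι)) = (n + 2).factorial := by
  rw [← closure_star, card_closure_star, hn]

theorem sym_two : HasPres (Perm (Fin 2)) 2 2 := by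
  set τ : FreeGroup (Fin 2) →* Perm (Fin 2) := FreeGroup.lift ![Equiv.swap 0 1, 1]
  refine (hasPres_of_list τ [FreeGroup.of 0 ^ 2, FreeGroup.of 1] le_rfl ?_ ⊤ ?_ ?_).congr Subgroup.topEquiv
  · intro l hl
    simp only [List.mem_cons, List.not_mem_nil, or_false] at hl
    rcases hl with rfl | rfl <;> simp [τ, pow_two, Equiv.swap_mul_self]
  · rw [eq_top_iff]
    intro g _
    have hg : g = 1 ∨ g = Equiv.swap 0 1 :=
      (by decide : ∀ g : Perm (Fin 2), g = 1 ∨ g = Equiv.swap 0 1) g
    rcases hg with rfl | rfl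
    · exact one_mem _
    · exact ⟨FreeGroup.of 0, by simp [τ]⟩
  · intro G _ φ ψ hsurj hkill _
    have k1 := hkill (FreeGroup.of 0 ^ 2) (by simp)
    have k2 := hkill (FreeGroup.of 1) (by simp)
    rw [map_pow, pow_two] at k1
    have hgen := closure_two φ hsurj
    rw [k2] at hgen
    obtain ⟨h1, h2⟩ := bound_of_involution (z := 1) (t := φ (FreeGroup.of 0)) (m := 0) (x := Fin.elim0)
      (by rw [← hgen, Set.pair_comm]) (fun i => i.elim0) (fun i => i.elim0) (one_mem _) k1 (fun i => i.elim0)
    exact ⟨h1, by rw [card_top_perm (Fin 2) (Fintype.card_fin 2)]; exact h2⟩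

theorem sym_three : HasPres (Perm (Bool ⊕ Fin 1)) 2 3 := by
  set z : Perm (Bool ⊕ Fin 1) := star 0
  set t : Perm (Bool ⊕ Fin 1) := Equiv.swap (Sum.inl false) (Sum.inl true) with ht
  set τ : FreeGroup (Fin 2) →* Perm (Bool ⊕ Fin 1) := FreeGroup.lift ![z, t]
  refine (hasPres_of_list τ [FreeGroup.of 0 ^ 3, FreeGroup.of 1 ^ 2,
    FreeGroup.of 1 * FreeGroup.of 0 * FreeGroup.of 1 * FreeGroup.of 0] le_rfl ?_ ⊤ ?_ ?_).congr Subgroup.topEquiv
  · intro l hl
    simp only [List.mem_cons, List.not_mem_nil, or_false] at hl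
    rcases hl with rfl | rfl | rfl
    · simp [τ, z, star_pow_three]
    · simp [τ, t, pow_two, Equiv.swap_mul_self]
    · simp only [map_mul, τ, FreeGroup.lift_apply_of]
      simp [z, t, conj_star_swap]
  · refine range_top τ (fun i => ?_) t ⟨FreeGroup.of 1, by simp [τ]⟩ (Perm.sign_swap (by simp))
    rw [Subsingleton.elim i 0]
    exact ⟨FreeGroup.of 0, by simp [τ, z]⟩
  · intro G _ φ ψ hsurj hkill _
    simp only [List.mem_cons, List.not_mem_nil, or_false, forall_eq_or_imp, forall_eq, map_mul, map_pow] at hkill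
    obtain ⟨k1, k2, k3⟩ := hkill
    rw [pow_two] at k2
    obtain ⟨h1, h2⟩ := bound_of_involution (closure_two φ hsurj) (x := ![φ (FreeGroup.of 0)])
      (by simp [k1]) (fun i j h => absurd (Subsingleton.elim i j) h)
      (Subgroup.subset_closure ⟨0, rfl⟩) k2 (fun i => by
        rw [Subsingleton.elim i 0, Matrix.cons_val_zero, eq_inv_of_mul_eq_one_left k3]
        exact inv_mem (Subgroup.subset_closure ⟨0, rfl⟩))
    exact ⟨h1, by rw [card_top_perm (Bool ⊕ Fin 1) (n := 3) (by simp)]; exact h2⟩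

theorem sym_four : HasPres (Perm (Bool ⊕ Fin 2)) 2 3 := by
  set z : Perm (Bool ⊕ Fin 2) := star 0
  set t : Perm (Bool ⊕ Fin 2) := liftI (Equiv.swap 0 1) with ht
  have htt : t * t = 1 := by rw [ht, ← map_mul, Equiv.swap_mul_self, map_one]
  have htz : t * z * t⁻¹ = star 1 := by rw [ht, liftI_conj_star, Equiv.swap_apply_left]
  set τ : FreeGroup (Fin 2) →* Perm (Bool ⊕ Fin 2) := FreeGroup.lift ![z, t]
  have ha : τ (FreeGroup.of 0) = z := by simp [τ]
  have hb : τ (FreeGroup.of 1) = t := by simp [τ]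
  refine (hasPres_of_list τ [FreeGroup.of 0 ^ 3, FreeGroup.of 1 ^ 2,
    (FreeGroup.of 0 * (FreeGroup.of 1 * FreeGroup.of 0 * (FreeGroup.of 1)⁻¹)) ^ 2] le_rfl ?_ ⊤ ?_ ?_).congr
    Subgroup.topEquiv
  · intro l hl
    simp only [List.mem_cons, List.not_mem_nil, or_false] at hl
    rcases hl with rfl | rfl | rfl
    · rw [map_pow, ha]; exact star_pow_three 0
    · rw [map_pow, hb, pow_two, htt]
    · rw [map_pow, map_mul, map_mul, map_mul, map_inv, ha, hb, htz]
      exact star_pair (by decide)
  · refine range_top τ (fun i => ?_) t ⟨_, hb⟩ (by rw [ht, sign_liftI]; exact Perm.sign_swap (by decide))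
    fin_cases i
    · exact ⟨_, ha⟩
    · show star 1 ∈ τ.range
      exact ⟨FreeGroup.of 1 * FreeGroup.of 0 * (FreeGroup.of 1)⁻¹, by rw [map_mul, map_mul, map_inv, ha, hb, htz]⟩
  · intro G _ φ ψ hsurj hkill _
    simp only [List.mem_cons, List.not_mem_nil, or_false, forall_eq_or_imp, forall_eq, map_mul, map_pow,
      map_inv] at hkill
    obtain ⟨k1, k2, k3⟩ := hkill
    rw [pow_two (φ (FreeGroup.of 1))] at k2
    set a := φ (FreeGroup.of 0)
    set b := φ (FreeGroup.of 1)
    have hbi : b⁻¹ = b := inv_eq_of_mul_eq_one_right k2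
    obtain ⟨h1, h2⟩ := bound_of_involution (closure_two φ hsurj) (x := ![a, b * a * b⁻¹])
      (fun i => by fin_cases i <;> simp [k1, conj_pow])
      (fun i j h => by
        fin_cases i <;> fin_cases j
        · exact absurd rfl h
        · exact k3
        · exact sq_swap k3
        · exact absurd rfl h)
      (Subgroup.subset_closure ⟨0, rfl⟩) k2 (fun i => by
        fin_cases i
        · refine Subgroup.subset_closure ⟨1, ?_⟩
          show b * a * b⁻¹ = b * a * b
          rw [hbi]
        · refine Subgroup.subset_closure ⟨0, ?_⟩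
          show a = b * (b * a * b⁻¹) * b
          rw [show b * (b * a * b⁻¹) * b = (b * b) * a * (b⁻¹ * b) by group, k2, inv_mul_cancel, one_mul, mul_one])
    exact ⟨h1, by rw [card_top_perm (Bool ⊕ Fin 2) (n := 4) (by simp)]; exact h2⟩

theorem alt_three : HasPres ↥(alternatingGroup (Bool ⊕ Fin 1)) 2 2 := by
  refine hasPres_of_list (FreeGroup.lift ![star (0 : Fin 1), 1]) [FreeGroup.of 0 ^ 3, FreeGroup.of 1] le_rfl
    ?_ _ ?_ ?_
  · intro l hl
    simp only [List.mem_cons, List.not_mem_nil, or_false] at hl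
    rcases hl with rfl | rfl <;> simp [star_pow_three]
  · refine range_alt _ (fun i => ?_) (fun i => by fin_cases i <;> simp [sign_star])
    rw [Subsingleton.elim i 0]
    exact ⟨FreeGroup.of 0, by simp⟩
  · intro G _ φ ψ hsurj hkill _
    simp only [List.mem_cons, List.not_mem_nil, or_false, forall_eq_or_imp, forall_eq, map_pow] at hkill
    obtain ⟨h1, h2⟩ := bound_of_family (closure_two φ hsurj) (x := ![φ (FreeGroup.of 0)])
      (by simp [hkill.1]) (fun i j h => absurd (Subsingleton.elim i j) h)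
      (Subgroup.subset_closure ⟨0, rfl⟩) (by rw [hkill.2]; exact one_mem _)
    refine ⟨h1, ?_⟩
    have := card_alt_star (Fin 1) (Fintype.card_fin 1)
    change 2 * Nat.card G ≤ (1 + 2).factorial at h2
    omega

theorem alt_four : HasPres ↥(alternatingGroup (Bool ⊕ Fin 2)) 2 3 := by
  refine hasPres_of_list (FreeGroup.lift ![star (0 : Fin 2), star 1])
    [FreeGroup.of 0 ^ 3, FreeGroup.of 1 ^ 3, (FreeGroup.of 0 * FreeGroup.of 1) ^ 2] le_rfl ?_ _ ?_ ?_
  · intro l hl
    simp only [List.mem_cons, List.not_mem_nil, or_false] at hl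
    rcases hl with rfl | rfl | rfl
    · simp [star_pow_three]
    · simp [star_pow_three]
    · rw [map_pow, map_mul, FreeGroup.lift_apply_of, FreeGroup.lift_apply_of]
      exact star_pair (by decide : (0 : Fin 2) ≠ 1)
  · refine range_alt _ (fun i => ?_) (fun i => by fin_cases i <;> simp [sign_star])
    fin_cases i
    · exact ⟨FreeGroup.of 0, by simp⟩
    · exact ⟨FreeGroup.of 1, by simp⟩
  · intro G _ φ ψ hsurj hkill _
    simp only [List.mem_cons, List.not_mem_nil, or_false, forall_eq_or_imp, forall_eq, map_pow, map_mul] at hkill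
    obtain ⟨k1, k2, k3⟩ := hkill
    obtain ⟨h1, h2⟩ := bound_of_family (closure_two φ hsurj) (x := ![φ (FreeGroup.of 0), φ (FreeGroup.of 1)])
      (fun i => by fin_cases i <;> assumption)
      (fun i j h => by
        fin_cases i <;> fin_cases j
        · exact absurd rfl h
        · exact k3
        · exact sq_swap k3
        · exact absurd rfl h)
      (Subgroup.subset_closure ⟨0, rfl⟩) (Subgroup.subset_closure ⟨1, rfl⟩)
    refine ⟨h1, ?_⟩
    have := card_alt_star (Fin 2) (Fintype.card_fin 2)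
    change 2 * Nat.card G ≤ (2 + 2).factorial at h2
    omega

/-- The four three-cycles generated by `z` and `t`. -/
def sixFam {A : Type*} [Group A] (z t : A) : Fin 4 → A :=
  ![z, t * z⁻¹ * t⁻¹, t ^ 2 * z * (t ^ 2)⁻¹, t ^ 3 * z⁻¹ * (t ^ 3)⁻¹]

theorem map_sixFam {A B : Type*} [Group A] [Group B] (f : A →* B) (z t : A) (i : Fin 4) :
    f (sixFam z t i) = sixFam (f z) (f t) i := by
  fin_cases i <;> simp [sixFam]

theorem alt_six : HasPres ↥(alternatingGroup (Bool ⊕ Fin 4)) 2 5 := by
  set c : Perm (Fin 4) := finRotate 4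
  set t : Perm (Bool ⊕ Fin 4) := evenify c with ht
  set z : Perm (Bool ⊕ Fin 4) := star 0
  have hsc : ((Perm.sign c : ℤˣ) : ℤ) = -1 := by simp [c, sign_finRotate]
  have hconj : ∀ i, t * star i * t⁻¹ = (star (i + 1))⁻¹ := by
    intro i
    rw [ht, conj_evenify, hsc, zpow_neg_one]
    simp [c, finRotate_apply]
  have hfam : ∀ i, sixFam z t i = star i := by
    have e1 : t * z⁻¹ * t⁻¹ = star 1 := by
      rw [← conj_inv, hconj, inv_inv]; rfl
    have e2 : t ^ 2 * z * (t ^ 2)⁻¹ = star 2 := by
      rw [pow_two, show t * t * z * (t * t)⁻¹ = t * (t * z * t⁻¹) * t⁻¹ by group, hconj, ← conj_inv, hconj,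
        inv_inv]
      rfl
    have e3 : t ^ 3 * z⁻¹ * (t ^ 3)⁻¹ = star 3 := by
      rw [show t ^ 3 * z⁻¹ * (t ^ 3)⁻¹ = t * (t ^ 2 * z * (t ^ 2)⁻¹)⁻¹ * t⁻¹ by group, e2, ← conj_inv, hconj,
        inv_inv]
      rfl
    intro i
    fin_cases i
    · rfl
    · exact e1
    · exact e2
    · exact e3
  set f : Fin 2 → Perm (Bool ⊕ Fin 4) := ![z, t]
  set τ : FreeGroup (Fin 2) →* Perm (Bool ⊕ Fin 4) := FreeGroup.lift f
  set la : FreeGroup (Fin 2) := FreeGroup.of 0
  set lt : FreeGroup (Fin 2) := FreeGroup.of 1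
  have ha : τ la = z := by simp [τ, f, la]
  have hb : τ lt = t := by simp [τ, f, lt]
  have hW : t ∈ Subgroup.closure (τ '' Set.range (sixFam la lt)) := by
    rw [← Set.range_comp]
    simp only [Function.comp_def, map_sixFam, ha, hb, hfam]
    rw [closure_star]
    exact sign_evenify c
  obtain ⟨W, hW, hWv⟩ := exists_word τ hW
  refine hasPres_of_list τ [la ^ 3, lt ^ 4, (la * sixFam la lt 1) ^ 2, (la * sixFam la lt 2) ^ 2,
    lt * W⁻¹] le_rfl ?_ _ ?_ ?_
  · intro l hl
    simp only [List.mem_cons, List.not_mem_nil, or_false] at hl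
    rcases hl with rfl | rfl | rfl | rfl | rfl
    · rw [map_pow, ha]; exact star_pow_three 0
    · rw [map_pow, hb, ht, ← map_pow, show c ^ 4 = 1 by decide, map_one]
    · rw [map_pow, map_mul, map_sixFam, ha, hb, hfam]; exact star_pair (by decide)
    · rw [map_pow, map_mul, map_sixFam, ha, hb, hfam]; exact star_pair (by decide)
    · rw [map_mul, map_inv, hb, hWv, mul_inv_cancel]
  · refine range_alt f (fun i => ⟨sixFam la lt i, by rw [map_sixFam]; rw [ha, hb, hfam]⟩) (fun i => ?_)
    fin_cases i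
    · exact sign_star 0
    · exact sign_evenify c
  · intro G _ φ ψ hsurj hkill _
    simp only [List.mem_cons, List.not_mem_nil, or_false, forall_eq_or_imp, forall_eq, map_pow, map_mul,
      map_inv, map_sixFam, mul_inv_eq_one] at hkill
    obtain ⟨k1, k2, k3, k4, k5⟩ := hkill
    set a := φ la
    set b := φ lt
    have hinv : ∀ {g h : G}, (g * h) ^ 2 = 1 → (g⁻¹ * h⁻¹) ^ 2 = 1 := fun e => by
      simpa using sq_zpow (e := -1) (Or.inr rfl) e
    have p12 : (sixFam a b 1 * sixFam a b 2) ^ 2 = 1 := by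
      have := sq_conj (u := b) (hinv k3)
      simp only [sixFam, Matrix.cons_val] at this ⊢
      convert this using 2
      group
    have p13 : (sixFam a b 1 * sixFam a b 3) ^ 2 = 1 := by
      have := sq_conj (u := b) (hinv k4)
      simp only [sixFam, Matrix.cons_val] at this ⊢
      convert this using 2
      group
    have p23 : (sixFam a b 2 * sixFam a b 3) ^ 2 = 1 := by
      have := sq_conj (u := b ^ 2) k3
      simp only [sixFam, Matrix.cons_val] at this ⊢
      convert this using 2
      group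
    have p03 : (sixFam a b 3 * a) ^ 2 = 1 := by
      have := sq_conj (u := b ^ 3) (hinv k3)
      simp only [sixFam, Matrix.cons_val] at this ⊢
      rw [show b ^ 3 * (b * a⁻¹ * b⁻¹)⁻¹ * (b ^ 3)⁻¹ = b ^ 4 * a * (b ^ 4)⁻¹ by group, k2, inv_one, mul_one,
        one_mul] at this
      exact this
    obtain ⟨h1, h2⟩ := bound_of_family (closure_two φ hsurj) (x := sixFam a b)
      (fun i => by fin_cases i <;> simp [sixFam, conj_pow, k1])
      (fun i j h => by
        fin_cases i <;> fin_cases j <;> first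
          | exact absurd rfl h
          | exact k3
          | exact k4
          | exact p12
          | exact p13
          | exact p23
          | exact p03
          | exact sq_swap k3
          | exact sq_swap k4
          | exact sq_swap p12
          | exact sq_swap p13
          | exact sq_swap p23
          | exact sq_swap p03)
      (Subgroup.subset_closure ⟨0, rfl⟩) (by
        have := Subgroup.mem_map_of_mem φ hW
        rw [MonoidHom.map_closure, ← Set.range_comp] at this
        simp only [Function.comp_def, map_sixFam] at this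
        rw [← k5] at this
        exact this)
    refine ⟨h1, ?_⟩
    have := card_alt_star (Fin 4) (Fintype.card_fin 4)
    omega

theorem exists_block {n : ℕ} (hn : 5 ≤ n) :
    ∃ p d, p.Prime ∧ Odd p ∧ n = p + d + 2 ∧ d + 2 ≤ p ∧ (n ≠ 6 → d + 3 ≤ p ∨ 2 ≤ d ∨ Even d) := by
  by_cases h7 : n < 7
  · interval_cases n
    · exact ⟨3, 0, by norm_num, by decide, rfl, by norm_num, fun _ => Or.inr (Or.inr (by decide))⟩
    · exact ⟨3, 1, by norm_num, by decide, rfl, by norm_num, fun h => absurd rfl h⟩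
  obtain ⟨p, hp, hlo, hhi⟩ : ∃ p, p.Prime ∧ (n + 1) / 2 - 1 ≤ p ∧ p ≤ n - 2 ∧ 5 ≤ p ∧ n ≤ 2 * p := by
    rcases Nat.even_or_odd n with ⟨k, rfl⟩ | ⟨k, rfl⟩
    · obtain ⟨p, hp, h1, h2⟩ := Nat.exists_prime_lt_and_le_two_mul (k - 1) (by omega)
      refine ⟨p, hp, by omega, by omega, ?_, by omega⟩
      by_contra h5
      have : p = 4 := by omega
      subst this; norm_num at hp
    · obtain ⟨p, hp, h1, h2⟩ := Nat.exists_prime_lt_and_le_two_mul k (by omega)
      have hne : p ≠ 2 * k := by
        rintro rfl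
        have := hp.eq_two_or_odd
        omega
      refine ⟨p, hp, by omega, by omega, ?_, by omega⟩
      by_contra h5
      have : p = 4 := by omega
      subst this; norm_num at hp
  obtain ⟨hhi, h5, hle⟩ := hhi
  refine ⟨p, n - 2 - p, hp, hp.odd_of_ne_two (by omega), by omega, by omega, fun _ => ?_⟩
  omega

theorem sym_pres (n : ℕ) : HasPres (Perm (Fin n)) 2 6 := by
  by_cases h : n < 5
  · interval_cases n
    · exact pres_one.mono (by norm_num)
    · exact pres_one.mono (by norm_num)
    · exact sym_two.mono (by norm_num)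
    · obtain ⟨e⟩ := perm_iso (α := Bool ⊕ Fin 1) (n := 3) (by simp)
      exact (sym_three.congr e).mono (by norm_num)
    · obtain ⟨e⟩ := perm_iso (α := Bool ⊕ Fin 2) (n := 4) (by simp)
      exact (sym_four.congr e).mono (by norm_num)
  obtain ⟨p, d, hp, hodd, hn, hd, -⟩ := exists_block (n := n) (by omega)
  haveI := Fact.mk hp
  obtain ⟨D, hD⟩ := exists_sym_data hd hodd
  obtain ⟨e⟩ := perm_iso (α := Bool ⊕ (ZMod p ⊕ Fin d)) (n := n) (by simp [ZMod.card]; omega)
  exact (sym_block hodd D hD).congr e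

theorem alt_pres (n : ℕ) : HasPres ↥(alternatingGroup (Fin n)) 2 6 := by
  by_cases h : n < 5
  · interval_cases n
    · exact pres_one.mono (by norm_num)
    · exact pres_one.mono (by norm_num)
    · haveI : Subsingleton ↥(alternatingGroup (Fin 2)) := by
        rw [← Finite.card_le_one_iff_subsingleton, Nat.card_eq_fintype_card]
        have := two_mul_card_alternatingGroup (α := Fin 2)
        rw [Fintype.card_perm, Fintype.card_fin] at this
        simp [Nat.factorial] at this ⊢
        omega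
      exact pres_one.mono (by norm_num)
    · obtain ⟨e⟩ := alt_iso (α := Bool ⊕ Fin 1) (n := 3) (by simp)
      exact (alt_three.congr e).mono (by norm_num)
    · obtain ⟨e⟩ := alt_iso (α := Bool ⊕ Fin 2) (n := 4) (by simp)
      exact (alt_four.congr e).mono (by norm_num)
  by_cases h6 : n = 6
  · subst h6
    obtain ⟨e⟩ := alt_iso (α := Bool ⊕ Fin 4) (n := 6) (by simp)
    exact (alt_six.congr e).mono (by norm_num)
  obtain ⟨p, d, hp, hodd, hn, hd, hcond⟩ := exists_block (n := n) (by omega)
  haveI := Fact.mk hp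
  obtain ⟨D, hD⟩ := exists_alt_data hd (hcond h6)
  obtain ⟨e⟩ := alt_iso (α := Bool ⊕ (ZMod p ⊕ Fin d)) (n := n) (by simp [ZMod.card]; omega)
  exact (alt_block hodd D hD).congr e

end CfsgLib.ShortPres
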